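import Cfsg.Agent.Lib.Blocks.Sections
import Cfsg.Agent.Lib.Blocks.Orth
import Cfsg.Agent.Lib.BrauerCharacters.BlockEntries
import Cfsg.Agent.Lib.CharTheory.Inflation
import Cfsg.Agent.Lib.CharTheory.FullDefect
import Cfsg.Agent.Lib.Cores.PCore

/-!
# Blocks with a central defect group

A block has the central `p`-subgroup `Z` as a defect group exactly when it contains a character
that is trivial on `Z` and whose degree has the full `p`-part of `|G : Z|`.
-/

set_option autoImplicit false
set_option linter.unusedSectionVars false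
set_option linter.style.haveILetI false

open scoped ComplexConjugate
open Cfsg

namespace CfsgLib.Blocks

variable {G : Type*} [Group G]

/-- A central element acts as a scalar in an irreducible character. -/
theorem irr_mul_mem_center [Finite G] (χ : IrrCharacter G) {z : G}
    (hz : z ∈ Subgroup.center G) (g : G) :
    (χ : G → ℂ) (z * g) * (χ : G → ℂ) 1 = (χ : G → ℂ) z * (χ : G → ℂ) g := by
  obtain ⟨n, ρ, hρ, h⟩ := χ.2
  haveI := hρ
  obtain ⟨c, hc⟩ := CharTheory.exists_smul_of_commute ρ (ρ z) (fun x => by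
    rw [← Module.End.mul_eq_comp, ← Module.End.mul_eq_comp, ← map_mul, ← map_mul,
      Subgroup.mem_center_iff.1 hz x])
  have key : ∀ x : G, (χ : G → ℂ) (z * x) = c * (χ : G → ℂ) x := by
    intro x
    rw [← h]
    simp only [Representation.character]
    rw [map_mul, hc, show (c • LinearMap.id : Module.End ℂ (Fin n → ℂ)) * ρ x = c • ρ x from by
      ext; simp, map_smul, smul_eq_mul]
  rw [key g]
  have h1 := key 1
  rw [mul_one] at h1
  rw [h1]
  ring

theorem irr_mul_of_trivial [Finite G] (χ : IrrCharacter G) {z : G}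
    (hz : (χ : G → ℂ) z = (χ : G → ℂ) 1) (g : G) : (χ : G → ℂ) (z * g) = (χ : G → ℂ) g := by
  obtain ⟨K, -, hK, hmul⟩ := CharTheory.exists_kernel (CharTheory.IsIrrCharacter.isCharacter χ.2)
  exact (hmul g z ((hK z).2 hz)).2

variable {p : ℕ} [Fact p.Prime]

theorem exists_isPPart_central {Z : Subgroup G} (hZc : Z ≤ Subgroup.center G)
    (hZp : IsPGroup p Z) {z : G} (hz : z ∈ Z) {y : G} (hy : ¬ p ∣ orderOf y) :
    IsPPart p (z * y) z := by
  obtain ⟨k, hk⟩ := IsPGroup.iff_orderOf.1 hZp ⟨z, hz⟩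
  exact isPPart_mul (Subgroup.mem_center_iff.1 (hZc hz) y).symm
    ⟨k, by rw [← hk, Subgroup.orderOf_mk]⟩ hy

theorem dvd_orderOf_mk_of_notMem [Finite G] {Z : Subgroup G} [Z.Normal] {g s : G}
    (hs : IsPPart p g s) (hsZ : s ∉ Z) : p ∣ orderOf (g : G ⧸ Z) := by
  by_contra h
  have h1 := mem_zpowers_pow_of_isPPart hs h
  have h2 : g ^ orderOf (g : G ⧸ Z) ∈ Z := by
    rw [← QuotientGroup.eq_one_iff, QuotientGroup.mk_pow, pow_orderOf_eq_one]
  exact hsZ ((Subgroup.zpowers_le.2 h2) h1)

variable [Fintype G] {M : Ideal AlgInt} [M.IsPrime] {B : Set (IrrCharacter G)}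

open scoped Classical in
/-- The regular norm of a character living on `Z` times the `p`-regular elements. -/
theorem card_mul_sum_reg_eq {Z : Subgroup G} (hZc : Z ≤ Subgroup.center G) (hZp : IsPGroup p Z)
    (θ : IrrCharacter G) (htriv : ∀ z ∈ Z, (θ : G → ℂ) z = (θ : G → ℂ) 1)
    (hvan : ∀ g s : G, IsPPart p g s → s ∉ Z → (θ : G → ℂ) g = 0) :
    (Nat.card Z : ℂ) * BrauerCharacters.regInner p (θ : G → ℂ) (θ : G → ℂ) = 1 := by
  set f : G → ℂ := fun g =>
    if p ∣ orderOf g then 0 else (θ : G → ℂ) g * conj ((θ : G → ℂ) g) with hf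
  haveI := Fintype.ofFinite Z
  have hone : ∀ g : G, ∑ z : Z, f ((z : G) * g) = (θ : G → ℂ) g * conj ((θ : G → ℂ) g) := by
    intro g
    by_cases h0 : (θ : G → ℂ) g = 0
    · rw [h0, zero_mul]
      refine Finset.sum_eq_zero fun z _ => ?_
      simp only [hf]
      rw [irr_mul_of_trivial θ (htriv z z.2), h0, zero_mul, ite_self]
    obtain ⟨s, hs⟩ := exists_isPPart p g
    have hsZ : s ∈ Z := by_contra fun h => h0 (hvan g s hs h)
    have hreg : ¬ p ∣ orderOf (s⁻¹ * g) := by
      obtain ⟨y, hy, -, -, hyreg⟩ := hs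
      rwa [← hy, inv_mul_cancel_left]
    rw [Finset.sum_eq_single (⟨s, hsZ⟩⁻¹ : Z)]
    · simp only [hf, InvMemClass.coe_inv, if_neg hreg]
      rw [irr_mul_of_trivial θ (htriv _ (Z.inv_mem hsZ))]
    · intro z _ hz
      simp only [hf]
      refine if_pos ?_
      by_contra hreg'
      apply hz
      have h2 := exists_isPPart_central hZc hZp (Z.inv_mem z.2) hreg'
      rw [inv_mul_cancel_left] at h2
      have h3 := IsPPart.unique hs h2
      ext
      rw [InvMemClass.coe_inv]
      exact (inv_eq_iff_eq_inv.2 h3).symm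
    · exact fun h => absurd (Finset.mem_univ _) h
  have hsum : ∑ g : G, (θ : G → ℂ) g * conj ((θ : G → ℂ) g) =
      (Nat.card Z : ℂ) * ∑ g : G, f g := by
    simp_rw [← hone]
    rw [Finset.sum_comm]
    refine (Finset.sum_congr rfl fun (z : Z) _ => Equiv.sum_comp (Equiv.mulLeft (z : G)) f).trans ?_
    rw [Finset.sum_const, Finset.card_univ, Nat.card_eq_fintype_card, nsmul_eq_mul]
  have h1 := CharTheory.classInner_self_of_isIrr θ.2
  rw [classInner, hsum] at h1
  rw [← h1, BrauerCharacters.regInner, classInner, mul_left_comm]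
  congr 2
  refine Finset.sum_congr rfl fun g _ => ?_
  simp only [hf, BrauerCharacters.pRegularPart_apply]
  split_ifs <;> simp

/-- A character trivial on `Z` with the full `p`-part of `|G : Z|` in its degree makes `Z` the
defect group. -/
theorem isDefectGroup_of_centralDefect (hM : IsPModular p M) (hB : IsPBlock M B)
    {Z : Subgroup G} (hZc : Z ≤ Subgroup.center G) (hZp : IsPGroup p Z) {θ : IrrCharacter G}
    (hθ : θ ∈ B) (htriv : ∀ z ∈ Z, (θ : G → ℂ) z = (θ : G → ℂ) 1)
    (hdeg : (charDegree (θ : G → ℂ)).factorization p + (Nat.card Z).factorization p =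
      (Nat.card G).factorization p) :
    IsDefectGroup p M B Z := by
  classical
  have hp : p.Prime := Fact.out
  haveI : Z.Normal := ⟨fun n hn g => by
    rwa [Subgroup.mem_center_iff.1 (hZc hn) g, mul_inv_cancel_right]⟩
  obtain ⟨ψ, hψ, hψθ⟩ := CharTheory.exists_descend θ.2 Z htriv
  have hd1 : ψ 1 = charDegree (θ : G → ℂ) := by
    rw [charDegree_cast θ, hψθ 1, QuotientGroup.mk_one]
  have hcard : (Nat.card G).factorization p =
      (Nat.card (G ⧸ Z)).factorization p + (Nat.card Z).factorization p := by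
    rw [Subgroup.card_eq_card_quotient_mul_card_subgroup Z,
      Nat.factorization_mul Nat.card_pos.ne' Nat.card_pos.ne']
    rfl
  have hvan : ∀ g s : G, IsPPart p g s → s ∉ Z → (θ : G → ℂ) g = 0 := by
    intro g s hs hsZ
    rw [hψθ g]
    refine CharTheory.IsIrrCharacter.eq_zero_of_fullDegree hψ hp
      (Nat.pow_succ_factorization_not_dvd Nat.card_pos.ne' hp) hd1 ?_
      (dvd_orderOf_mk_of_notMem hs hsZ)
    rw [show (Nat.card (G ⧸ Z)).factorization p = (charDegree (θ : G → ℂ)).factorization p by omega]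
    exact Nat.ordProj_dvd _ p
  obtain ⟨z, hz⟩ := IsPGroup.iff_card.1 hZp
  have hkey := card_mul_sum_reg_eq hZc hZp θ htriv hvan
  have hd := BrauerCharacters.defect_add_degree (p := p) hθ
  have hdz : blockDefect p B = z + blockHeight p B (θ : G → ℂ) := by
    rw [hz, Nat.factorization_pow_self hp] at hdeg
    omega
  have hentry : BrauerCharacters.regEntry p B θ θ =
      (p : ℤ) ^ blockHeight p B (θ : G → ℂ) := by
    have hc := BrauerCharacters.coe_regEntry (p := p) hθ θ
    rw [hz, Nat.cast_pow] at hkey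
    rw [hdz, pow_add, mul_assoc, mul_comm ((p : ℂ) ^ blockHeight p B (θ : G → ℂ)), ← mul_assoc,
      hkey, one_mul] at hc
    exact_mod_cast hc
  have hh : blockHeight p B (θ : G → ℂ) = 0 := by
    by_contra h
    have hdvd := BrauerCharacters.pow_succ_height_dvd_of_pos hM hB hθ hθ (Nat.pos_of_ne_zero h)
    rw [hentry] at hdvd
    have h2 : p ^ (blockHeight p B (θ : G → ℂ) + 1) ∣ p ^ blockHeight p B (θ : G → ℂ) := by
      exact_mod_cast hdvd
    exact absurd (Nat.pow_dvd_pow_iff_le_right hp.one_lt |>.1 h2) (by omega)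
  obtain ⟨D, hD⟩ := exists_isDefectGroup hM hB
  have hle : Z ≤ D := (Cores.le_pCore hZp).trans (pCore_le_isDefectGroup hM hB hD)
  have hDZ : Z = D := Subgroup.eq_of_le_of_card_ge hle (by
    rw [card_isDefectGroup hM hB hD, hz, hdz, hh, add_zero])
  exact hDZ ▸ hD

/-- A block with a central defect group has a character trivial on it with the full `p`-part
of `|G : Z|` in its degree. -/
theorem exists_centralDefect_char (hM : IsPModular p M) (hB : IsPBlock M B) {Z : Subgroup G}
    (hZc : Z ≤ Subgroup.center G) (hD : IsDefectGroup p M B Z) :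
    ∃ θ ∈ B, (∀ z ∈ Z, (θ : G → ℂ) z = (θ : G → ℂ) 1) ∧
      (charDegree (θ : G → ℂ)).factorization p + (Nat.card Z).factorization p =
        (Nat.card G).factorization p := by
  classical
  have hp : p.Prime := Fact.out
  have hZp : IsPGroup p Z := isPGroup_of_isDefectGroup hD
  haveI := Fintype.ofFinite Z
  obtain ⟨θ, hθ, hne⟩ : ∃ θ ∈ B, ∑ z : Z, conj ((θ : G → ℂ) z) ≠ 0 := by
    by_contra hcon
    push Not at hcon
    have h1 : ∑ χ ∈ BrauerCharacters.blockFinset B,
        (χ : G → ℂ) 1 * ∑ z : Z, conj ((χ : G → ℂ) z) = 0 :=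
      Finset.sum_eq_zero fun χ hχ => by
        rw [hcon χ (BrauerCharacters.mem_blockFinset.1 hχ), mul_zero]
    simp_rw [Finset.mul_sum] at h1
    rw [Finset.sum_comm, Finset.sum_eq_single (1 : Z)] at h1
    · have h2 : ∑ χ ∈ BrauerCharacters.blockFinset B, (charDegree (χ : G → ℂ)) ^ 2 = 0 := by
        have h3 : ∀ χ : IrrCharacter G, (χ : G → ℂ) 1 * conj ((χ : G → ℂ) ((1 : Z) : G)) =
            (((charDegree (χ : G → ℂ)) ^ 2 : ℕ) : ℂ) := fun χ => by
          rw [OneMemClass.coe_one, ← charDegree_cast χ, Complex.conj_natCast, Nat.cast_pow, pow_two]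
        simp_rw [h3] at h1
        exact_mod_cast h1
      obtain ⟨χ, hχ⟩ := isPBlock_nonempty hB
      have := Finset.sum_eq_zero_iff.1 h2 χ (BrauerCharacters.mem_blockFinset.2 hχ)
      exact charDegree_ne_zero' χ (by simpa using this)
    · intro z _ hz
      have hord : p ∣ orderOf (z : G) := by
        obtain ⟨k, hk⟩ := IsPGroup.iff_orderOf.1 hZp z
        rw [← Subgroup.orderOf_coe] at hk
        rw [hk]
        refine dvd_pow_self p fun h0 => hz ?_
        rw [h0, pow_zero, orderOf_eq_one_iff] at hk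
        exact Subtype.ext hk
      have := finsum_mul_conj_eq_zero_of_isPBlock hM hB (x := (1 : G))
        (by rw [orderOf_one]; exact hp.not_dvd_one) hord
      rwa [BrauerCharacters.finsum_mem_eq_sum_blockFinset] at this
    · exact fun h => absurd (Finset.mem_univ _) h
  have htriv : ∀ z ∈ Z, (θ : G → ℂ) z = (θ : G → ℂ) 1 := by
    intro z₀ hz₀
    by_contra hne'
    apply hne
    have h1 : (θ : G → ℂ) 1 * ∑ z : Z, (θ : G → ℂ) z = (θ : G → ℂ) z₀ * ∑ z : Z, (θ : G → ℂ) z := by
      rw [Finset.mul_sum, Finset.mul_sum,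
        ← Equiv.sum_comp (Equiv.mulLeft (⟨z₀, hz₀⟩ : Z))
          (fun z : Z => (θ : G → ℂ) 1 * (θ : G → ℂ) z)]
      refine Finset.sum_congr rfl fun z _ => ?_
      rw [mul_comm, ← irr_mul_mem_center θ (hZc hz₀) z]
      rfl
    rw [← map_sum, map_eq_zero]
    have h2 : ((θ : G → ℂ) 1 - (θ : G → ℂ) z₀) * ∑ z : Z, (θ : G → ℂ) z = 0 := by
      rw [sub_mul, h1, sub_self]
    exact (mul_eq_zero.1 h2).resolve_left (sub_ne_zero.2 (Ne.symm hne'))
  refine ⟨θ, hθ, htriv, ?_⟩
  have hvan : ∀ g s : G, IsPPart p g s → s ∉ Z → (θ : G → ℂ) g = 0 := by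
    intro g s hs hsZ
    refine irr_eq_zero_of_isPPart_notMem hM θ hs fun D hD' hsD => hsZ ?_
    rw [← isPBlock_eq_of_mem hB (isPBlock_blockOf θ) hθ (mem_blockOf_self θ)] at hD'
    obtain ⟨a, ha⟩ := isDefectGroup_conj_exists hM hB hD hD'
    rw [← ha] at hsD
    obtain ⟨z, hz, hzs⟩ := hsD
    rw [MulEquiv.coe_toMonoidHom, MulAut.conj_apply, Subgroup.mem_center_iff.1 (hZc hz) a,
      mul_inv_cancel_right] at hzs
    exact hzs ▸ hz
  have hkey := card_mul_sum_reg_eq hZc hZp θ htriv hvan
  rw [BrauerCharacters.regInner_eq_pairReg] at hkey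
  have hint := BrauerCharacters.isIntegral_pairReg_div p θ θ
  have hG : (Nat.card G : ℂ) ≠ 0 := Nat.cast_ne_zero.2 Nat.card_pos.ne'
  have hdvd : ((charDegree (θ : G → ℂ) * Nat.card Z : ℕ) : ℤ) ∣ (Nat.card G : ℤ) := by
    refine BrauerCharacters.int_dvd_of_eq_mul_isIntegral
      (mul_ne_zero (charDegree_ne_zero' θ) Nat.card_pos.ne') hint ?_
    have h1 := CharTheory.apply_one_ne_zero_of_isIrr θ.2
    push_cast
    rw [charDegree_cast θ]
    field_simp at hkey ⊢
    linear_combination -hkey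
  rw [Int.natCast_dvd_natCast] at hdvd
  have hle := (Nat.factorization_le_iff_dvd
    (mul_ne_zero (charDegree_ne_zero' θ) Nat.card_pos.ne') Nat.card_pos.ne').2 hdvd p
  rw [Nat.factorization_mul (charDegree_ne_zero' θ) Nat.card_pos.ne'] at hle
  simp only [Finsupp.coe_add, Pi.add_apply] at hle
  have hd := BrauerCharacters.defect_add_degree (p := p) hθ
  have hcard := card_isDefectGroup hM hB hD
  have : (Nat.card Z).factorization p = blockDefect p B := by
    rw [hcard, Nat.factorization_pow_self hp]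
  omega

end CfsgLib.Blocks
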