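import Cfsg.Agent.Lib.Blocks.OneSubsection
import Cfsg.Agent.Lib.CharDegreesTheory.BlockStabilizer
import Cfsg.Agent.Lib.CharDegreesTheory.PPrimeCover
import Cfsg.Agent.Lib.PSolvable.HallHigman
import Cfsg.Agent.Lib.BrauerPairs.CoverBridge

/-!
# Blocks of `p`-solvable groups with `k(B) - l(B) ≤ 1`

The defect group is abelian: reduce to an invariant character of the `p'`-core by Fong–Reynolds,
then it is a Sylow subgroup of `O_{p',p}(G)` all of whose non-identity elements are conjugate.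
-/

set_option autoImplicit false
set_option linter.style.haveILetI false
set_option linter.unusedSectionVars false

namespace CfsgLib.Blocks.OneSubsection

open Cfsg CfsgLib.BrauerPairs CfsgLib.CharDegreesTheory

universe u

section Rank

variable {G : Type u} [Group G] [Fintype G] {p : ℕ}

theorem indFun_pRegularPart (T : Subgroup G) (φ : T → ℂ) :
    indFun T (pRegularPart p φ) = pRegularPart p (indFun T φ) := by
  classical
  funext g
  have h : ∀ x : G, extendByZero T (pRegularPart p φ) (x⁻¹ * g * x) =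
      if IsPRegular p g then extendByZero T φ (x⁻¹ * g * x) else 0 := by
    intro x
    by_cases hx : x⁻¹ * g * x ∈ T
    · rw [Frobenius.extendByZero_of_mem _ _ hx, Frobenius.extendByZero_of_mem _ _ hx]
      have ho : orderOf (⟨x⁻¹ * g * x, hx⟩ : T) = orderOf g := by
        rw [Subgroup.orderOf_mk, show x⁻¹ * g * x = MulAut.conj x⁻¹ g by simp]
        exact (MulAut.conj x⁻¹).orderOf_eq g
      have hiff : IsPRegular p (⟨x⁻¹ * g * x, hx⟩ : T) ↔ IsPRegular p g := by
        rw [IsPRegular, IsPRegular, ho]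
      simp only [pRegularPart]
      by_cases h' : IsPRegular p g
      · rw [if_pos (hiff.2 h'), if_pos h']
      · rw [if_neg (fun e => h' (hiff.1 e)), if_neg h']
    · rw [Frobenius.extendByZero_of_not_mem _ _ hx, Frobenius.extendByZero_of_not_mem _ _ hx,
        ite_self]
  simp only [indFun, h, pRegularPart]
  split_ifs <;> simp

/-- Induction does not raise the rank. -/
theorem blockRank_le_of_indFun (T : Subgroup G) {B : Set (IrrCharacter G)}
    {B' : Set (IrrCharacter T)}
    (h : ∀ χ ∈ B, ∃ ψ ∈ B', (χ : G → ℂ) = indFun T (ψ : T → ℂ)) :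
    blockRank p B ≤ blockRank p B' := by
  classical
  let L : (T → ℂ) →ₗ[ℂ] (G → ℂ) :=
    { toFun := indFun T
      map_add' := Frobenius.indFun_add T
      map_smul' := Frobenius.indFun_smul T }
  refine le_trans (Submodule.finrank_mono (t := (Submodule.span ℂ
    ((fun ψ : IrrCharacter T => pRegularPart p (ψ : T → ℂ)) '' B')).map L) ?_)
    (Submodule.finrank_map_le _ _)
  rw [Submodule.span_le]
  rintro _ ⟨χ, hχ, rfl⟩
  obtain ⟨ψ, hψ, hχψ⟩ := h χ hχ
  refine Submodule.mem_map.2 ⟨_, Submodule.subset_span ⟨ψ, hψ, rfl⟩, ?_⟩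
  show indFun T (pRegularPart p (ψ : T → ℂ)) = pRegularPart p (χ : G → ℂ)
  rw [indFun_pRegularPart, hχψ]

end Rank

variable {p : ℕ} [hp : Fact p.Prime] {M : Ideal AlgInt} [M.IsPrime]

/-- With an invariant character of the `p'`-core below, the defect group is abelian. -/
theorem commute_of_invariant {G : Type u} [Group G] [Fintype G] (hsolv : IsPSolvable p G)
    (hM : IsPModular p M) {B : Set (IrrCharacter G)} (hB : IsPBlock M B)
    (N : Subgroup G) [N.Normal] [Fintype N] (hN : N = pPrimeCore p G) (θ : IrrCharacter N)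
    (hinv : ∀ (g : G) (n : N), (θ : N → ℂ)
      ⟨g * n * g⁻¹, (inferInstance : N.Normal).conj_mem n n.2 g⟩ = (θ : N → ℂ) n)
    {χ : IrrCharacter G} (hχ : χ ∈ B)
    (hne : classInner (fun n : N => (χ : G → ℂ) n) (θ : N → ℂ) ≠ 0)
    {D : Subgroup G} (hD : IsDefectGroup p M B D)
    (hconj : ∀ x ∈ D, ∀ y ∈ D, x ≠ 1 → y ≠ 1 → IsConj x y) :
    ∀ x ∈ D, ∀ y ∈ D, x * y = y * x := by
  classical
  haveI : M.IsMaximal := hM.2.1
  haveI : CharP (Blocks.Res M) p := Blocks.charP_res hM
  haveI : IsAlgClosed (Blocks.Res M) := Blocks.isAlgClosed_res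
  set K := pPrimePCore p G with hKdef
  have hNp : ¬ p ∣ Nat.card N := by rw [hN]; exact Cores.not_dvd_card_pPrimeCore
  have hNK : N ≤ K := hN ▸ PSolvable.pPrimeCore_le_pPrimePCore p G
  have hreg : ∀ x ∈ K, ¬ p ∣ orderOf x → x ∈ N := by
    subst hN
    intro x hx hxp
    rw [← QuotientGroup.eq_one_iff (N := pPrimeCore p G)]
    have hx' : QuotientGroup.mk' (pPrimeCore p G) x ∈ pCore p (G ⧸ pPrimeCore p G) := hx
    obtain ⟨k, hk⟩ := IsPGroup.iff_orderOf.1 (Cores.isPGroup_pCore p (G ⧸ pPrimeCore p G)) ⟨_, hx'⟩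
    rw [Subgroup.orderOf_mk] at hk
    refine orderOf_eq_one_iff.1 (Nat.eq_one_of_dvd_coprimes
      ((hp.out.coprime_iff_not_dvd.2 hxp).pow_left k) (hk ▸ dvd_rfl) ?_)
    exact orderOf_map_dvd (QuotientGroup.mk' (pPrimeCore p G)) x
  let S : Sylow p K := default
  set P := (S : Subgroup K).map K.subtype with hP
  have hPK : P ≤ K := Subgroup.map_subtype_le _
  have hPp : IsPGroup p P := S.2.map _
  have hPmax : ∀ Q : Subgroup G, Q ≤ K → IsPGroup p Q → Nat.card Q ≤ Nat.card P := by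
    intro Q hQK hQ
    obtain ⟨R, hR⟩ := (hQ.comap_subtype (K := K)).exists_le_sylow
    calc Nat.card Q = Nat.card (Q.subgroupOf K) :=
          (Nat.card_congr (Subgroup.subgroupOfEquivOfLe hQK).toEquiv).symm
      _ ≤ Nat.card R := Subgroup.card_le_of_le hR
      _ = Nat.card (S : Subgroup K) := by rw [Sylow.card_eq_multiplicity, Sylow.card_eq_multiplicity]
      _ = Nat.card P := (Subgroup.card_map_of_injective K.subtype_injective).symm
  have hCP : Subgroup.centralizer (P : Set G) ≤ K := by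
    intro x hx
    have h1 : QuotientGroup.mk' (pPrimeCore p G) x ∈ Subgroup.centralizer
        (pCore p (G ⧸ pPrimeCore p G) : Set (G ⧸ pPrimeCore p G)) := by
      rw [Subgroup.mem_centralizer_iff]
      intro y hy
      rw [SetLike.mem_coe, ← PSolvable.map_sylow_pPrimePCore S] at hy
      obtain ⟨u, hu, rfl⟩ := hy
      rw [← map_mul, ← map_mul, Subgroup.mem_centralizer_iff.1 hx u hu]
    exact PSolvable.centralizer_pCore_le (PSolvable.isPSolvable_quotient hsolv (pPrimeCore p G))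
      (Cores.pPrimeCore_quotient_pPrimeCore p) h1
  have hE := isBlockIdem_subIdem_singleton N hM hNp θ hinv hNK hreg hPp hPK hPmax hCP
  have hbB := isBlockIdem_redElem_blockCoeff (M := M) hB
  have hne' : redElem M (blockCoeff B) * subIdem M N {θ} ≠ 0 :=
    (covers_iff N hB (isPBlock_singleton hM hNp θ)).1 ⟨χ, hχ, θ, rfl, hne⟩
  have hBE : redElem M (blockCoeff B) = subIdem M N {θ} := hbB.eq_of_mul_ne_zero hE hne'
  have hDin := (isDefectGroup_iff hM hB).1 hD
  have hbr : brau P (redElem M (blockCoeff B)) ≠ 0 := by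
    rw [hBE]
    exact brau_subIdem_singleton_ne_zero N hM hNp θ hPp fun g _ => hinv g
  obtain ⟨c, -, hcD⟩ := hDin.exists_conj_le hPp le_top hbr
  rcases eq_or_ne D ⊥ with hD1 | hD1
  · intro x hx y hy
    rw [hD1, Subgroup.mem_bot] at hx hy
    rw [hx, hy]
  have hDp : IsPGroup p D := Blocks.isPGroup_of_isDefectGroup hD
  -- a non-identity element of `D` inside `K`
  have hP1 : P ≠ ⊥ := by
    intro h
    have htop : K = ⊤ := top_le_iff.1 fun g _ => hCP (by
      rw [Subgroup.mem_centralizer_iff]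
      intro y hy
      rw [h, SetLike.mem_coe, Subgroup.mem_bot] at hy
      rw [hy, one_mul, mul_one])
    have h2 := hPmax D (htop ▸ le_top) hDp
    rw [h, Subgroup.card_bot] at h2
    exact hD1 (Subgroup.eq_bot_of_card_le _ h2)
  obtain ⟨⟨u, hu⟩, hu1⟩ := Subgroup.ne_bot_iff_exists_ne_one.1 hP1
  have hKn : K.Normal := inferInstance
  have hu' : c⁻¹ * u * c ∈ K := by simpa using hKn.conj_mem u (hPK hu) c⁻¹
  have hu'1 : c⁻¹ * u * c ≠ 1 := fun h => hu1 (Subtype.ext (by
    calc u = c * (c⁻¹ * u * c) * c⁻¹ := by group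
      _ = 1 := by rw [h]; group))
  have hDK : D ≤ K := by
    intro x hx
    by_cases hx1 : x = 1
    · rw [hx1]; exact one_mem K
    obtain ⟨g, hg⟩ := isConj_iff.1 (hconj _ (hcD u hu) x hx hu'1 hx1)
    rw [← hg]
    exact hKn.conj_mem _ hu' g
  -- so `D` is a Sylow subgroup of `K`
  obtain ⟨R, hR⟩ := (hDp.comap_subtype (K := K)).exists_le_sylow
  have hDR : D.subgroupOf K = (R : Subgroup K) := by
    refine Subgroup.eq_of_le_of_card_ge hR ?_
    rw [Nat.card_congr (Subgroup.subgroupOfEquivOfLe hDK).toEquiv, Sylow.card_eq_multiplicity,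
      ← Sylow.card_eq_multiplicity S, ← Subgroup.card_map_of_injective (f := K.subtype)
      K.subtype_injective]
    refine le_trans (le_of_eq ?_) (Subgroup.card_le_of_le (K := D)
      (H := P.map (MulAut.conj c⁻¹).toMonoidHom) ?_)
    · exact (Subgroup.card_map_of_injective (f := (MulAut.conj c⁻¹).toMonoidHom) (MulAut.conj c⁻¹).injective).symm
    · rintro _ ⟨v, hv, rfl⟩
      simpa using hcD v hv
  have hDR' : D = (R : Subgroup K).map K.subtype := by
    rw [← hDR, Subgroup.map_subgroupOf_eq_of_le hDK]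
  have hFr : Subgroup.normalizer (D : Set G) ⊔ K = ⊤ := by
    rw [hDR']; exact Sylow.normalizer_sup_eq_top R
  have hKD : N ⊔ D = K := by
    rw [hDR', hN]; exact PSolvable.pPrimeCore_sup_sylow R
  have hND : ∀ w ∈ N, w ∈ D → w = 1 := by
    intro w hwN hwD
    obtain ⟨k, hk⟩ := exists_order_of_mem hDp hwD
    have h1 : orderOf w ∣ Nat.card N := by
      rw [← Subgroup.orderOf_mk w hwN]; exact orderOf_dvd_natCard _
    exact orderOf_eq_one_iff.1 (Nat.eq_one_of_dvd_coprimes
      ((hp.out.coprime_iff_not_dvd.2 hNp).pow_left k) (hk ▸ dvd_rfl) h1)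
  haveI : Nontrivial D := (Subgroup.nontrivial_iff_ne_bot D).2 hD1
  haveI := hDp.center_nontrivial
  obtain ⟨⟨⟨z, hz⟩, hzc⟩, hz1⟩ := exists_ne (1 : Subgroup.center D)
  have hz1' : z ≠ 1 := fun h => hz1 (Subtype.ext (Subtype.ext h))
  have hzD : ∀ y ∈ D, y * z = z * y := fun y hy =>
    congrArg Subtype.val (Subgroup.mem_center_iff.1 hzc ⟨y, hy⟩)
  suffices hcen : ∀ x ∈ D, ∀ y ∈ D, y * x = x * y by
    exact fun x hx y hy => (hcen x hx y hy).symm
  intro x hx y hy
  by_cases hx1 : x = 1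
  · rw [hx1, one_mul, mul_one]
  obtain ⟨g, hg⟩ := isConj_iff.1 (hconj z hz x hx hz1' hx1)
  have hgK : g ∈ K ⊔ Subgroup.normalizer (D : Set G) := by
    rw [sup_comm, hFr]; exact Subgroup.mem_top g
  obtain ⟨k, hk, n, hn, rfl⟩ := Subgroup.mem_sup_of_normal_left.1 hgK
  rw [← hKD] at hk
  obtain ⟨v, hv, d, hd, rfl⟩ := Subgroup.mem_sup_of_normal_left.1 hk
  set z' := n * z * n⁻¹ with hz'
  have hz'D : z' ∈ D := (Subgroup.mem_normalizer_iff.1 hn z).1 hz
  have hz'c : ∀ w ∈ D, w * z' = z' * w := by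
    intro w hw
    have hw' : n⁻¹ * w * n ∈ D := by
      simpa using (Subgroup.mem_normalizer_iff.1 (inv_mem hn) w).1 hw
    calc w * z' = n * ((n⁻¹ * w * n) * z) * n⁻¹ := by rw [hz']; group
      _ = n * (z * (n⁻¹ * w * n)) * n⁻¹ := by rw [hzD _ hw']
      _ = z' * w := by rw [hz']; group
  have hxz : x = v * z' * v⁻¹ := by
    calc x = v * d * n * z * (v * d * n)⁻¹ := hg.symm
      _ = v * (d * z' * d⁻¹) * v⁻¹ := by rw [hz']; group
      _ = v * z' * v⁻¹ := by rw [hz'c d hd, mul_inv_cancel_right]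
  have hxz' : x * z'⁻¹ = 1 := by
    refine hND _ ?_ (mul_mem hx (inv_mem hz'D))
    rw [hxz, show v * z' * v⁻¹ * z'⁻¹ = v * (z' * v⁻¹ * z'⁻¹) by group]
    exact mul_mem hv ((inferInstance : N.Normal).conj_mem _ (inv_mem hv) z')
  rw [mul_inv_eq_one] at hxz'
  rw [hxz']
  exact hz'c y hy

/-- The defect groups are abelian. -/
theorem commute_of_pSolvable (n : ℕ) : ∀ {G : Type u} [Group G] [Fintype G], Nat.card G ≤ n →
    IsPSolvable p G → IsPModular p M → ∀ {B : Set (IrrCharacter G)}, IsPBlock M B →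
    Nat.card B ≤ blockRank p B + 1 → ∀ {D : Subgroup G}, IsDefectGroup p M B D →
    ∀ x ∈ D, ∀ y ∈ D, x * y = y * x := by
  classical
  induction n with
  | zero =>
    intro G _ _ hn
    exact absurd hn (Nat.not_le.2 Nat.card_pos)
  | succ n ih =>
    intro G _ _ hn hsolv hM B hB hk D hD
    obtain ⟨N, hNdef⟩ : ∃ N : Subgroup G, N = pPrimeCore p G := ⟨_, rfl⟩
    haveI : N.Normal := hNdef ▸ inferInstance
    haveI : Fintype N := Fintype.ofFinite N
    have hNp : ¬ p ∣ Nat.card N := by rw [hNdef]; exact Cores.not_dvd_card_pPrimeCore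
    obtain ⟨χ₀, hχ₀⟩ := Blocks.isPBlock_nonempty hB
    obtain ⟨θ, hθ⟩ := BlockLocal.exists_constituent N χ₀
    set T := inertiaOf N (θ : N → ℂ) with hTdef
    by_cases hTtop : T = ⊤
    · refine commute_of_invariant hsolv hM hB N hNdef θ (fun g m => ?_) hχ₀ hθ hD
        fun x hx y hy hx1 hy1 => isConj_of_mem hM hB hk hD hx hy hx1 hy1
      have hg : g ∈ T := hTtop ▸ Subgroup.mem_top g
      exact (Clifford.conjChar_apply N (θ : N → ℂ) g m).symm.trans (congrFun hg m)
    haveI : Fintype T := Fintype.ofFinite T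
    have hb := isPBlock_singleton (M := M) hM hNp θ
    have hT : ∀ g : G, g ∈ T ↔ ∀ η ∈ ({θ} : Set (IrrCharacter N)),
        BlockLocal.conjIrr N g η ∈ ({θ} : Set (IrrCharacter N)) := by
      intro g
      simp only [Set.mem_singleton_iff, forall_eq]
      rw [← inv_mem_iff, Subtype.ext_iff, ← inv_inv g, conjIrr_inv_eq_conjChar, inv_inv]
      rfl
    have hNT : N ≤ T := fun m hm => by
      show Clifford.conjChar N (θ : N → ℂ) m = θ
      funext x
      rw [Clifford.conjChar_apply]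
      exact (congrArg (θ : N → ℂ) (Subtype.ext rfl)).trans
        (CharTheory.IsIrrCharacter.isClassFunction θ.2 x ⟨m, hm⟩)
    obtain ⟨φ, hφo, hχφ⟩ := exists_indFun_eq hb hT hNT χ₀ (Set.mem_singleton θ) hθ
    set B' := blockOf M (φ : T → ℂ) with hB'def
    have hB' : IsPBlock M B' := Blocks.isPBlock_blockOf φ
    have hφB' : φ ∈ B' := Blocks.mem_blockOf_self φ
    obtain ⟨B₂, hind, -, hmem⟩ := exists_induced_block hb hT hNT hB' ⟨φ, hφB', hφo⟩
    obtain rfl : B₂ = B := Blocks.isPBlock_eq_of_mem hind.2.1 hB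
      ((hmem χ₀).2 ⟨φ, hφB', hχφ⟩) hχ₀
    have hcoef := blockCoeff_eq_indFun hb hT hNT hB' ⟨φ, hφB', hφo⟩ hmem
    obtain ⟨D', hD'⟩ := exists_isDefectGroup hM hB'
    have hDG := isDefectGroup_map_of_induced hM hb hT hNT hB' ⟨φ, hφB', hφo⟩ hB hcoef hD'
    obtain ⟨a, ha⟩ := Blocks.isDefectGroup_conj_exists hM hB hDG hD
    have hcard : Nat.card B' ≤ Nat.card B₂ := by
      choose F hF₁ hF₂ hF₃ using fun ψ : B' =>
        exists_induced_over hb hT hNT (ψ : IrrCharacter T)
          (overBlock_of_mem hb hNT hB' hφB' hφo ψ.2)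
      refine Nat.card_le_card_of_injective
        (fun ψ => (⟨F ψ, (hmem _).2 ⟨_, ψ.2, hF₁ ψ⟩⟩ : B₂)) fun ψ ψ' h => ?_
      have hFF : F ψ = F ψ' := congrArg Subtype.val h
      refine Subtype.ext ((hF₃ ψ' (ψ : IrrCharacter T) ?_
        (overBlock_of_mem hb hNT hB' hφB' hφo ψ.2)))
      rw [← hFF, CharTheory.classInner_conj_symm,
        ← Frobenius.classInner_indFun T _ _ (CharTheory.IsIrrCharacter.isClassFunction (F ψ).2),
        ← hF₁, CharTheory.classInner_self_of_isIrr (F ψ).2, map_one]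
      exact one_ne_zero
    have hrank : blockRank p B₂ ≤ blockRank p B' :=
      blockRank_le_of_indFun T fun χ hχ => (hmem χ).1 hχ
    have hlt : Nat.card T < Nat.card G := by
      by_contra hge
      exact hTtop (Subgroup.eq_top_of_le_card _ (Nat.not_lt.1 hge))
    have hc := ih (G := T) (by omega) (PSolvable.isPSolvable_subgroup hsolv T) hM hB'
      (by omega) hD'
    intro x hx y hy
    rw [← ha] at hx hy
    obtain ⟨_, ⟨x', hx', rfl⟩, rfl⟩ := hx
    obtain ⟨_, ⟨y', hy', rfl⟩, rfl⟩ := hy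
    rw [← map_mul, ← map_mul, ← map_mul, ← map_mul, hc x' hx' y' hy']

/-- The `p`-solvable case. -/
theorem isElementaryAbelian_of_pSolvable {G : Type u} [Group G] [Finite G]
    (hsolv : IsPSolvable p G) (hM : IsPModular p M) {B : Set (IrrCharacter G)}
    (hB : IsPBlock M B) (hk : Nat.card B ≤ blockRank p B + 1) {D : Subgroup G}
    (hD : IsDefectGroup p M B D) : IsElementaryAbelian p D := by
  haveI := Fintype.ofFinite G
  have hc := commute_of_pSolvable _ le_rfl hsolv hM hB hk hD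
  exact ⟨⟨⟨fun a b => Subtype.ext (hc a a.2 b b.2)⟩⟩, fun a ha =>
    pow_eq_one_of_isConj hM (Blocks.isPGroup_of_isDefectGroup hD)
      (fun x hx y hy hx1 hy1 => isConj_of_mem hM hB hk hD hx hy hx1 hy1) ha⟩

end CfsgLib.Blocks.OneSubsection
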