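import Cfsg.Agent.Lib.Blocks.OrbitSums
import Cfsg.Agent.Lib.Clifford.Extension
import Cfsg.Agent.Lib.BlockLocal.BlockCover
import Cfsg.Agent.Lib.CharDegreesTheory.Galois
import Cfsg.Agent.Lib.Jordan.GaloisNorm

/-!
# Canonical extensions of principal block characters

If `G = N C_G(P)` for a Sylow subgroup `P` of `N`, an invariant principal block character `θ` of
degree and determinantal order prime to `p` has exactly one extension whose orbit sums are congruent
to the orbit sizes and whose determinantal order is prime to `p`. The congruence passes up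
normal steps of `p`-power index.
-/

set_option autoImplicit false
set_option linter.unusedSectionVars false
set_option linter.style.haveILetI false

namespace CfsgLib.Blocks.OrbitSums

open MonoidAlgebra Cfsg CfsgLib.CharTheory CfsgLib.RealChar CfsgLib.Clifford

variable {G : Type*} [Group G] [Finite G]

/-- The scalars on the orbit sums of `N` agree with the augmentation modulo `M`. -/
def Congr (M : Ideal AlgInt) (N : Subgroup G) (χ : G → ℂ) : Prop :=
  ∀ g : G, MemLocalIdeal M (omega χ (fsum ℂ (orb N g)) - ((orb N g).card : ℂ))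

/-- The determinantal order is prime to `p`. -/
def DetPrime (p : ℕ) (χ : G → ℂ) : Prop :=
  ∃ l : G →* ℂˣ, detChar χ = linFun l ∧ ¬ p ∣ orderOf l

/-- The determinant of a composition. -/
theorem detChar_comp {H : Type*} [Group H] [Finite H] (f : H →* G) {χ : G → ℂ}
    (hχ : IsCharacter G χ) {l : G →* ℂˣ} (hl : detChar χ = linFun l) :
    detChar (fun x => χ (f x)) = linFun (l.comp f) := by
  obtain ⟨k, ρ, rfl⟩ := hχ
  let σ : Representation ℂ H (Fin k → ℂ) := ρ.comp f
  rw [detChar_eq σ (χ := fun x => ρ.character (f x)) rfl]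
  rw [detChar_eq ρ rfl] at hl
  rw [← linFun_injective hl]
  rfl

/-- A homomorphism to the scalars is killed by the group order. -/
theorem pow_card_hom (l : G →* ℂˣ) : l ^ Nat.card G = 1 :=
  MonoidHom.ext fun g => by rw [MonoidHom.pow_apply, ← map_pow, pow_card_eq_one', map_one]; rfl

theorem orderOf_dvd_ordCompl {p : ℕ} [hp : Fact p.Prime] {A : Type*} [Monoid A] {x : A} {n : ℕ}
    (hn : x ^ n = 1) (hx : ¬ p ∣ orderOf x) : orderOf x ∣ n / p ^ n.factorization p := by
  have h1 := orderOf_dvd_of_pow_eq_one hn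
  rw [← Nat.ordProj_mul_ordCompl_eq_self n p] at h1
  exact (Nat.Coprime.pow_right _ ((hp.out.coprime_iff_not_dvd.2 hx).symm)).dvd_of_dvd_mul_left h1

section Modular

variable {p : ℕ} {M : Ideal AlgInt} [M.IsPrime] [hp : Fact p.Prime] (hM : IsPModular p M)
variable {N : Subgroup G} [N.Normal]

include hM

/-- The scalar of a twist by a linear character. -/
theorem omega_twist (l : G →* ℂˣ) (χ : G → ℂ) (g : G) :
    omega (linFun l * χ) (fsum ℂ (orb N g)) = (l g : ℂ) * omega χ (fsum ℂ (orb N g)) := by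
  rw [omega_fsum, omega_fsum, Finset.mul_sum]
  refine Finset.sum_congr rfl fun x hx => ?_
  obtain ⟨n, -, rfl⟩ := mem_orb.1 hx
  simp only [Pi.mul_apply, linFun_apply, map_mul, map_inv, map_one, Units.val_one, one_mul,
    mul_inv_cancel_comm, mul_div_assoc]

/-- Twisting by a linear character of `p`-power order keeps the congruence. -/
theorem congr_twist {χ : G → ℂ} (hχ : IsCharacter G χ)
    (hres : IsIrrCharacter N (fun x : N => χ x)) (hc : Congr M N χ) {l : G →* ℂˣ} {k : ℕ}
    (hl : l ^ p ^ k = 1) : Congr M N (linFun l * χ) := by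
  intro g
  rw [omega_twist hM]
  have h1 : MemLocalIdeal M ((l g : ℂ) - 1) := memLocalIdeal_sub_one_of_pow_prime_pow hM (k := k) (by
    rw [← Units.val_pow_eq_pow_val, ← MonoidHom.pow_apply, hl, MonoidHom.one_apply, Units.val_one])
  have h2 := memLocalIdeal_add
    (memLocalIdeal_mul_right h1 (memLocalRing_omega_fsum (M := M) hχ hres (orb_invariant g))) (hc g)
  rw [sub_mul, one_mul, sub_add_sub_cancel] at h2
  exact h2

set_option maxHeartbeats 4000000 in
/-- The extension of an invariant principal block character. -/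
theorem exists_congr_extension (P : Sylow p N)
    (hcov : N ⊔ Subgroup.centralizer (((P : Subgroup N).map N.subtype : Subgroup G) : Set G) = ⊤)
    (θ : IrrCharacter N) (hθ : θ ∈ principalBlock M N)
    (hinv : ∀ (g : G) (n : N), (θ : N → ℂ) (MulAut.conjNormal g n) = (θ : N → ℂ) n)
    (hdeg : ¬ p ∣ charDegree (θ : N → ℂ)) (hdet : DetPrime p (θ : N → ℂ)) :
    ∃ χ : G → ℂ, IsIrrCharacter G χ ∧ (∀ n : N, χ n = (θ : N → ℂ) n) ∧ Congr M N χ ∧
      DetPrime p χ := by
  classical
  obtain ⟨θf, hθirr⟩ := θ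
  obtain ⟨d, ρ, hρ, rfl⟩ := hθirr
  haveI := hρ
  have hd : charDegree ρ.character = d := by simp [charDegree]
  have hd' : ¬ p ∣ d := hd ▸ hdeg
  have hd0 : 0 < d := Nat.pos_of_ne_zero fun h => hd' (h ▸ dvd_zero p)
  obtain ⟨l, hl, hlp⟩ := hdet
  rw [detChar_eq ρ rfl] at hl
  obtain rfl := linFun_injective hl
  set o := orderOf (detHom ρ) with ho
  have ho0 : 0 < o := Nat.pos_of_ne_zero fun h => hlp (h ▸ dvd_zero p)
  have hpdo : ¬ p ∣ d * o := fun h => (hp.out.dvd_mul.1 h).elim hd' hlp
  haveI : NeZero (d * o) := ⟨Nat.mul_ne_zero hd0.ne' ho0.ne'⟩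
  have hinv' : ∀ (g : G) (n : N), ρ.character (MulAut.conjNormal g n) = ρ.character n := hinv
  let D : interGroup N ρ →* ℂˣ :=
    (Units.map (LinearMap.det : Module.End ℂ (Fin d → ℂ) →* ℂ)).comp (interSnd N ρ)
  have hDs : ∀ z, D (interScalar N ρ z) = z ^ d := by
    intro z
    refine Units.ext ?_
    show LinearMap.det (algebraMap ℂ (Module.End ℂ (Fin d → ℂ)) (z : ℂ)) = _
    rw [Algebra.algebraMap_eq_smul_one, LinearMap.det_smul, map_one, mul_one,
      Module.finrank_fintype_fun_eq_card, Fintype.card_fin, Units.val_pow_eq_pow_val]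
  set E : Subgroup (interGroup N ρ) := ((powMonoidHom o).comp D).ker with hE
  have hmemE : ∀ x, x ∈ E ↔ D x ^ o = 1 := fun x => Iff.rfl
  have hιE : ∀ n, interIncl N ρ n ∈ E := fun n => by
    rw [hmemE]
    have h1 : D (interIncl N ρ n) = detHom ρ n := Units.ext (by rw [detHom_apply]; rfl)
    rw [h1, ← MonoidHom.pow_apply, ho, pow_orderOf_eq_one, MonoidHom.one_apply]
  let ι : N →* E := (interIncl N ρ).codRestrict E hιE
  let fst : E →* G := (interFst N ρ).comp E.subtype
  have hsec : ∀ g, ∃ e : E, fst e = g := fun g => by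
    obtain ⟨x, hx⟩ := interFst_surjective hinv' g
    obtain ⟨r, hr⟩ := IsAlgClosed.exists_pow_nat_eq ((D x)⁻¹ : ℂˣ).val hd0
    have hr0 : r ≠ 0 := fun h => by
      rw [h, zero_pow hd0.ne'] at hr
      exact (D x)⁻¹.ne_zero hr.symm
    have h1 : Units.mk0 r hr0 ^ d = (D x)⁻¹ := Units.ext (by simpa using hr)
    refine ⟨⟨interScalar N ρ (Units.mk0 r hr0) * x, ?_⟩, ?_⟩
    · rw [hmemE, map_mul, hDs, h1, inv_mul_cancel, one_pow]
    · show interFst N ρ (interScalar N ρ (Units.mk0 r hr0) * x) = g
      rw [map_mul, interFst_scalar, one_mul, hx]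
  choose sec hsec using hsec
  have hker : ∀ e : E, fst e = 1 → ∃ z : ℂˣ, (e : interGroup N ρ) = interScalar N ρ z ∧
      z ^ (d * o) = 1 := by
    intro e he
    obtain ⟨z, hz⟩ := exists_scalar_of_interFst_eq (e : interGroup N ρ) 1
      (by rw [map_one]; exact he)
    rw [mul_one] at hz
    refine ⟨z, hz, ?_⟩
    have h1 := (hmemE _).1 e.2
    rwa [hz, hDs, ← pow_mul] at h1
  have hcentral : ∀ e : E, fst e = 1 → ∀ x : E, Commute e x := fun e he x => by
    obtain ⟨z, hz, -⟩ := hker e he
    exact Subtype.ext (show (e : interGroup N ρ) * x = x * e by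
      rw [hz]; exact (interScalar_commute N ρ z _).eq)
  haveI hfin : Finite E := by
    refine Finite.of_surjective
      (fun q : G × rootsOfUnity (d * o) ℂ => (⟨interScalar N ρ (q.2 : ℂˣ), by
        rw [hmemE, hDs, ← pow_mul]; exact q.2.2⟩ : E) * sec q.1) fun e => ?_
    obtain ⟨z, hz, hzo⟩ := hker (e * (sec (fst e))⁻¹) (by
      rw [map_mul, map_inv, hsec, mul_inv_cancel])
    refine ⟨(fst e, ⟨z, hzo⟩), ?_⟩
    rw [← eq_mul_inv_iff_mul_eq]
    exact Subtype.ext hz.symm
  haveI := Fintype.ofFinite E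
  set N' : Subgroup E := ι.range with hN'
  haveI : N'.Normal := by
    constructor
    rintro _ ⟨n, rfl⟩ e
    exact ⟨MulAut.conjNormal (fst e) n, Subtype.ext (interIncl_conj N ρ e n).symm⟩
  have hιinj : Function.Injective ι := fun a b h =>
    Subtype.ext (congrArg (fun x : E => fst x) h)
  let φe : N ≃* N' := MonoidHom.ofInjective hιinj
  have hφe : ∀ n, ((φe n : N') : E) = ι n := fun n => rfl
  let P' : Sylow p N' := P.mapSurjective (f := φe.toMonoidHom) φe.surjective
  have hcov' : N' ⊔ Subgroup.centralizer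
      (((P' : Subgroup N').map N'.subtype : Subgroup E) : Set E) = ⊤ := by
    refine eq_top_iff.2 fun e _ => ?_
    have hg : fst e ∈ N ⊔ Subgroup.centralizer
        (((P : Subgroup N).map N.subtype : Subgroup G) : Set G) := hcov ▸ Subgroup.mem_top _
    obtain ⟨n, hn, c, hc, hnc⟩ := Subgroup.mem_sup_of_normal_left.1 hg
    have he : e = ι ⟨n, hn⟩ * ((ι ⟨n, hn⟩)⁻¹ * e) := (mul_inv_cancel_left _ _).symm
    rw [he]
    refine Subgroup.mul_mem_sup ⟨_, rfl⟩ (Subgroup.mem_centralizer_iff.2 ?_)
    rintro _ ⟨y, hy, rfl⟩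
    rw [show (P' : Subgroup N') = (P : Subgroup N).map φe.toMonoidHom from
      Sylow.coe_mapSurjective _ _] at hy
    obtain ⟨u, hu, rfl⟩ := hy
    set e' := (ι ⟨n, hn⟩)⁻¹ * e with he'
    have hfe' : fst e' = c := by
      rw [he', map_mul, map_inv, ← hnc]
      exact inv_mul_cancel_left n c
    have h1 : e' * ι u * e'⁻¹ = ι u := by
      refine Subtype.ext ?_
      have h2 := interIncl_conj N ρ (e' : interGroup N ρ) u
      rw [show interFst N ρ (e' : interGroup N ρ) = c from hfe'] at h2
      rw [show (MulAut.conjNormal c u : N) = u from Subtype.ext (by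
        rw [MulAut.conjNormal_apply, mul_inv_eq_iff_eq_mul]
        exact (Subgroup.mem_centralizer_iff.1 hc _ ⟨u, hu, rfl⟩).symm)] at h2
      exact h2
    exact (mul_inv_eq_iff_eq_mul.1 h1).symm
  let τ : Representation ℂ E (Fin d → ℂ) :=
    (Units.coeHom _).comp ((interSnd N ρ).comp E.subtype)
  haveI : τ.IsIrreducible := isIrreducible_of_comp τ ι hρ
  let τ' : Representation ℂ N' (Fin d → ℂ) := ρ.comp φe.symm.toMonoidHom
  have hτ' : τ'.comp φe.toMonoidHom = ρ :=
    MonoidHom.ext fun n => congrArg ρ (φe.symm_apply_apply n)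
  haveI : τ'.IsIrreducible := isIrreducible_of_comp τ' φe.toMonoidHom (hτ'.symm ▸ hρ)
  let θ' : IrrCharacter N' := ⟨τ'.character, isIrrCharacter_character τ'⟩
  have hθ'B : θ' ∈ principalBlock M N' := by
    intro x
    have h1 := BlockLocal.centralChar_comp_equiv φe.symm ρ.character x
    have h2 := BlockLocal.centralChar_comp_equiv φe.symm (fun _ : N => (1 : ℂ)) x
    have h3 := hθ (φe.symm x)
    show MemLocalIdeal M (centralChar (fun _ : N' => (1 : ℂ)) x -
      centralChar (fun y => ρ.character (φe.symm y)) x)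
    rw [h1, h2]
    exact h3
  let ψ : IrrCharacter E := ⟨τ.character, isIrrCharacter_character τ⟩
  have hψ : ∀ x : N', (ψ : E → ℂ) x = (θ' : N' → ℂ) x := fun x => by
    obtain ⟨n, rfl⟩ := φe.surjective x
    show LinearMap.trace ℂ _ (τ (φe n : E)) = LinearMap.trace ℂ _ (ρ (φe.symm (φe n)))
    rw [φe.symm_apply_apply]
    rfl
  obtain ⟨μ, hμN, hμ⟩ := exists_linear_congr hM P' hcov' θ' hθ'B ψ hψ
  let σE : Representation ℂ E (Fin d → ℂ) :=
    { toFun := fun e => (μ e : ℂ) • τ e
      map_one' := by simp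
      map_mul' := fun a b => by
        rw [map_mul μ, map_mul τ, Units.val_mul, smul_mul_assoc, mul_smul_comm, smul_smul] }
  have hσE : ∀ e, σE.character e = (μ e : ℂ) * (ψ : E → ℂ) e := fun e => by
    show LinearMap.trace ℂ _ ((μ e : ℂ) • τ e) = _
    rw [map_smul, smul_eq_mul]
    rfl
  have hdC : (d : ℂ) ≠ 0 := Nat.cast_ne_zero.2 hd0.ne'
  have hker1 : ∀ e : E, fst e = 1 → σE e = 1 := by
    intro e he
    obtain ⟨z, hz, hzo⟩ := hker e he
    have horb : orb N' e = {e} := by
      ext x
      rw [mem_orb, Finset.mem_singleton]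
      constructor
      · rintro ⟨y, -, rfl⟩
        rw [(hcentral e he y).symm.eq, mul_inv_cancel_right]
      · rintro rfl; exact ⟨1, one_mem _, by group⟩
    have hτe : τ e = algebraMap ℂ (Module.End ℂ (Fin d → ℂ)) (z : ℂ) := by
      show ((interSnd N ρ (e : interGroup N ρ)) : Module.End ℂ (Fin d → ℂ)) = _
      rw [hz]; rfl
    have h1 := hμ e
    rw [horb, omega_fsum, Finset.sum_singleton, Finset.card_singleton, Nat.cast_one, map_one,
      Units.val_one, one_mul] at h1
    have h2 : (ψ : E → ℂ) e = (z : ℂ) * d := by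
      show LinearMap.trace ℂ _ (τ e) = _
      rw [hτe, Algebra.algebraMap_eq_smul_one, map_smul, LinearMap.trace_one,
        Module.finrank_fin_fun, smul_eq_mul]
    have h3 : (ψ : E → ℂ) 1 = d := by
      show τ.character 1 = _
      rw [Representation.char_one, Module.finrank_fin_fun]
    rw [h2, h3, ← mul_assoc, mul_div_cancel_right₀ _ hdC] at h1
    have he1 : e ^ (d * o) = 1 := Subtype.ext (by
      rw [SubgroupClass.coe_pow, hz, ← map_pow, hzo, map_one]; rfl)
    have h4 : (μ e : ℂ) * z = 1 := eq_one_of_sub_one_mem hM hpdo (by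
      rw [mul_pow, ← Units.val_pow_eq_pow_val, ← Units.val_pow_eq_pow_val, ← map_pow, he1, map_one,
        hzo, Units.val_one, one_mul]) h1
    show (μ e : ℂ) • τ e = 1
    rw [hτe, Algebra.algebraMap_eq_smul_one, smul_smul, h4, one_smul]
  have hσwd : ∀ e, σE e = σE (sec (fst e)) := fun e => by
    have h1 := hker1 ((sec (fst e))⁻¹ * e) (by rw [map_mul, map_inv, hsec, inv_mul_cancel])
    rw [map_mul] at h1
    calc σE e = σE (sec (fst e)) * (σE (sec (fst e))⁻¹ * σE e) := by
          rw [← mul_assoc, ← map_mul, mul_inv_cancel, map_one, one_mul]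
      _ = _ := by rw [h1, mul_one]
  let σ : Representation ℂ G (Fin d → ℂ) :=
    { toFun := fun g => σE (sec g)
      map_one' := hker1 _ (hsec 1)
      map_mul' := fun a b => by
        rw [← map_mul σE, hσwd (sec a * sec b), map_mul fst, hsec, hsec] }
  have hσn : ∀ n : N, σ n = ρ n := fun n => by
    show σE (sec (n : G)) = ρ n
    have h1 := hσwd (ι n)
    rw [show fst (ι n) = (n : G) from rfl] at h1
    rw [← h1]
    show (μ (ι n) : ℂ) • τ (ι n) = ρ n
    rw [hμN _ ⟨n, rfl⟩, Units.val_one, one_smul]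
    rfl
  obtain ⟨hirr, hres⟩ := isIrrCharacter_of_extension ρ σ hσn
  have hσc : ∀ e, σE.character e = σ.character (fst e) := fun e => by
    show LinearMap.trace ℂ _ (σE e) = LinearMap.trace ℂ _ (σE (sec (fst e)))
    rw [← hσwd]
  have hres' : IsIrrCharacter N (fun x : N => σ.character x) := by
    rw [show (fun x : N => σ.character x) = ρ.character from funext hres]
    exact isIrrCharacter_character ρ
  have hcong : Congr M N σ.character := by
    intro g
    set S' : Finset E := Finset.univ.filter fun e => fst e ∈ orb N g with hS'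
    have hinvS : ∀ m ∈ N', ∀ x ∈ S', m * x * m⁻¹ ∈ S' := by
      rintro _ ⟨n, rfl⟩ x hx
      simp only [hS', Finset.mem_filter, Finset.mem_univ, true_and] at hx ⊢
      rw [map_mul, map_mul, map_inv]
      exact orb_invariant g _ n.2 _ hx
    have h1 := memLocalIdeal_sum_sub hμ S' hinvS
    set c := (Finset.univ.filter fun e : E => fst e = 1).card with hc
    have hfib : ∀ x ∈ orb N g, (S'.filter fun e => fst e = x).card = c := by
      intro x hx
      rw [show S'.filter (fun e => fst e = x) = Finset.univ.filter (fun e => fst e = x) by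
        ext e
        simp only [hS', Finset.mem_filter, Finset.mem_univ, true_and]
        exact ⟨fun h => h.2, fun h => ⟨h.symm ▸ hx, h⟩⟩]
      refine (Finset.card_equiv (Equiv.mulLeft (sec x)) fun e => ?_).symm
      simp [map_mul, hsec]
    have hval : ∀ e, (μ e : ℂ) * (ψ : E → ℂ) e / ((μ 1 : ℂ) * (ψ : E → ℂ) 1) =
        σ.character (fst e) / σ.character 1 := fun e => by
      rw [← hσE, ← hσE, hσc, hσc, map_one]
    have hmaps : ∀ e ∈ S', fst e ∈ orb N g := fun e he => (Finset.mem_filter.1 he).2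
    simp only [hval] at h1
    rw [← Finset.sum_fiberwise_of_maps_to (g := fun e => fst e) hmaps,
      Finset.card_eq_sum_card_fiberwise (f := fun e => fst e) hmaps, Finset.sum_congr rfl hfib,
      Finset.sum_congr rfl fun x hx => by
        rw [Finset.sum_congr rfl fun e he => by rw [(Finset.mem_filter.1 he).2], Finset.sum_const,
          hfib x hx, nsmul_eq_mul],
      ← Finset.mul_sum, Finset.sum_const, smul_eq_mul, Nat.cast_mul, mul_comm ((orb N g).card : ℂ),
      ← mul_sub, ← omega_fsum] at h1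
    have hcK : c = Nat.card fst.ker := by
      rw [hc, ← Fintype.card_subtype, ← Nat.card_eq_fintype_card]
      rfl
    have hcp : ¬ p ∣ c := by
      intro h
      rw [hcK] at h
      obtain ⟨⟨e, he⟩, hoe⟩ := exists_prime_orderOf_dvd_card' p h
      obtain ⟨z, hz, hzo⟩ := hker e he
      rw [Subgroup.orderOf_mk] at hoe
      refine hpdo (hoe ▸ orderOf_dvd_of_pow_eq_one (Subtype.ext ?_))
      rw [SubgroupClass.coe_pow, hz, ← map_pow, hzo, map_one]; rfl
    rcases (memLocalIdeal_mul_iff (memLocalRing_natCast c)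
      ((locRing M).sub_mem (memLocalRing_omega_fsum (IsIrrCharacter.isCharacter hirr) hres'
        (orb_invariant g)) (natCast_mem (locRing M) _))).1 h1 with h | h
    · exact absurd ((memLocalIdeal_natCast_iff hM c).1 h) hcp
    · exact h
  -- normalize the determinant
  set a := (Nat.card G).factorization p
  set m := Nat.card G / p ^ a with hm
  have hcm : Nat.Coprime p m := Nat.coprime_ordCompl hp.out Nat.card_pos.ne'
  have hpam : p ^ a * m = Nat.card G := Nat.ordProj_mul_ordCompl_eq_self _ p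
  set D0 := detHom σ with hD0
  have hD0N : ∀ n : N, D0 n = detHom ρ n := fun n => Units.ext (by
    rw [detHom_apply, hσn]; exact (detHom_apply ρ n).symm)
  set ν : G →* ℂˣ := (D0 ^ m)⁻¹ with hν
  have hνpow : ν ^ p ^ a = 1 := by
    have e : (D0 ^ m) ^ p ^ a = 1 := (pow_mul D0 m (p ^ a)).symm.trans (by
      rw [mul_comm, hpam]; exact pow_card_hom D0)
    rw [hν]
    exact (inv_pow (D0 ^ m) (p ^ a)).trans (inv_eq_one.2 e)
  obtain ⟨b, hb⟩ := exists_pow_eq_of_coprime (A := G →* ℂˣ)
    (Nat.Coprime.pow_left a (Nat.Coprime.mul_right (hp.out.coprime_iff_not_dvd.2 hd') hcm)) hνpow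
  set lam : G →* ℂˣ := ν ^ b with hlam
  have hlamN : ∀ n : N, lam n = 1 := fun n => by
    have hom : o ∣ m := by
      refine orderOf_dvd_ordCompl (n := Nat.card G) ?_ hlp
      exact MonoidHom.ext fun x => by
        rw [MonoidHom.pow_apply, ← hD0N, ← MonoidHom.pow_apply, pow_card_hom]; rfl
    rw [hlam, MonoidHom.zpow_apply, hν, MonoidHom.inv_apply, MonoidHom.pow_apply, hD0N,
      ← MonoidHom.pow_apply, orderOf_dvd_iff_pow_eq_one.1 hom, MonoidHom.one_apply, inv_one, one_zpow]
  have hlampow : lam ^ p ^ a = 1 := zpow_pow_eq_one (A := G →* ℂˣ) hνpow b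
  have hσ1 : σ.character 1 = (d : ℂ) := by rw [Representation.char_one, Module.finrank_fin_fun]
  refine ⟨linFun lam * σ.character, isIrrCharacter_linFun_mul lam hirr, fun n => ?_,
    congr_twist hM (IsIrrCharacter.isCharacter hirr) hres' hcong hlampow, lam ^ d * D0, ?_, ?_⟩
  · rw [Pi.mul_apply, linFun_apply, hlamN, Units.val_one, one_mul]
    exact hres n
  · rw [detChar_mul_linear lam (IsIrrCharacter.isCharacter hirr) hσ1, detChar_eq σ rfl, ← hD0,
      ← map_pow, ← map_mul]
  · have h1 : (lam ^ d * D0) ^ m = 1 := by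
      refine (mul_pow (lam ^ d) D0 m).trans
        ((congrArg (· * D0 ^ m) ((pow_mul lam d m).symm.trans hb)).trans ?_)
      rw [hν]
      exact inv_mul_cancel (D0 ^ m)
    intro h
    exact (hp.out.coprime_iff_not_dvd.1 hcm) (h.trans (orderOf_dvd_of_pow_eq_one h1))

/-- The canonical extension is unique. -/
theorem congr_extension_unique (P : Sylow p N)
    (hcov : N ⊔ Subgroup.centralizer (((P : Subgroup N).map N.subtype : Subgroup G) : Set G) = ⊤)
    {θ : N → ℂ} (hθ : IsIrrCharacter N θ) {d : ℕ} (hd : θ 1 = d) (hdp : ¬ p ∣ d) {χ χ' : G → ℂ}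
    (hχ : IsIrrCharacter G χ) (hχθ : ∀ n : N, χ n = θ n) (hc : Congr M N χ) (hdet : DetPrime p χ)
    (hχ' : IsIrrCharacter G χ') (hχ'θ : ∀ n : N, χ' n = θ n) (hc' : Congr M N χ')
    (hdet' : DetPrime p χ') : χ' = χ := by
  classical
  obtain ⟨l, hlN, rfl⟩ := exists_linFun_of_extensions hθ hχ hχθ hχ' hχ'θ
  have hres : IsIrrCharacter N (fun x : N => χ x) := by
    rw [show (fun x : N => χ x) = θ from funext hχθ]; exact hθ
  have hcong : ∀ g, MemLocalIdeal M ((l g : ℂ) - 1) := by
    intro g
    have hg : g ∈ N ⊔ Subgroup.centralizer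
        (((P : Subgroup N).map N.subtype : Subgroup G) : Set G) := hcov ▸ Subgroup.mem_top g
    obtain ⟨n, hn, c, hC, rfl⟩ := Subgroup.mem_sup_of_normal_left.1 hg
    rw [map_mul, hlN ⟨n, hn⟩, one_mul]
    have h1 := hc' c
    rw [omega_twist hM] at h1
    have h2 := memLocalIdeal_mul_left (memLocalRing_of_isIntegral (M := M)
      (isIntegral_of_pow_eq_one (Nat.card_pos (α := G)).ne'
        (show (l c : ℂ) ^ Nat.card G = 1 by
          rw [← Units.val_pow_eq_pow_val, ← map_pow, pow_card_eq_one', map_one, Units.val_one]))) (hc c)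
    have h3 : MemLocalIdeal M (((l c : ℂ) - 1) * ((orb N c).card : ℂ)) := by
      have h4 := memLocalIdeal_sub h1 h2
      convert h4 using 1
      ring
    have hcard : ¬ p ∣ (orb N c).card :=
      not_dvd_card_orb P fun y hy => Subgroup.mem_centralizer_iff.1 hC y ⟨y, hy, rfl⟩
    have hlint : MemLocalRing M ((l c : ℂ) - 1) :=
      (locRing M).sub_mem (memLocalRing_of_isIntegral (isIntegral_of_pow_eq_one
        (Nat.card_pos (α := G)).ne' (show (l c : ℂ) ^ Nat.card G = 1 by
          rw [← Units.val_pow_eq_pow_val, ← map_pow, pow_card_eq_one', map_one, Units.val_one])))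
        (one_mem _)
    exact ((memLocalIdeal_mul_iff hlint (memLocalRing_natCast _)).1 h3).resolve_right
      fun h => hcard ((memLocalIdeal_natCast_iff hM _).1 h)
  set a := (Nat.card G).factorization p
  set m := Nat.card G / p ^ a with hm
  have hcm : Nat.Coprime p m := Nat.coprime_ordCompl hp.out Nat.card_pos.ne'
  have hpam : p ^ a * m = Nat.card G := Nat.ordProj_mul_ordCompl_eq_self _ p
  have hl : l ^ p ^ a = 1 := MonoidHom.ext fun g => Units.ext (by
    rw [MonoidHom.pow_apply, MonoidHom.one_apply, Units.val_one, Units.val_pow_eq_pow_val]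
    refine eq_one_of_sub_one_mem hM (hp.out.coprime_iff_not_dvd.1 hcm) ?_ ?_
    · rw [← pow_mul, hpam, ← Units.val_pow_eq_pow_val, ← map_pow, pow_card_eq_one', map_one,
        Units.val_one]
    · have hlg : MemLocalRing M (l g : ℂ) := memLocalRing_of_isIntegral
        (isIntegral_of_pow_eq_one (Nat.card_pos (α := G)).ne' (by
          rw [← Units.val_pow_eq_pow_val, ← map_pow, pow_card_eq_one', map_one, Units.val_one]))
      have h5 := (red_eq_red_iff (⟨_, hlg⟩ : locRing M) 1).2 (by simpa using hcong g)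
      rw [map_one] at h5
      have h6 : red M ((⟨_, hlg⟩ : locRing M) ^ p ^ a) = red M 1 := by
        rw [map_pow, h5, one_pow, map_one]
      simpa using (red_eq_red_iff _ _).1 h6)
  obtain ⟨D₁, hD₁, hD₁p⟩ := hdet
  obtain ⟨D₂, hD₂, hD₂p⟩ := hdet'
  have hχ1 : χ 1 = (d : ℂ) := (hχθ 1).trans hd
  rw [detChar_mul_linear l (IsIrrCharacter.isCharacter hχ) hχ1, hD₁, ← map_pow, ← map_mul] at hD₂
  have h7 : l ^ d * D₁ = D₂ := linFun_injective hD₂
  have h8 : (l ^ d) ^ m = 1 := by
    have e1 : D₂ ^ m = 1 := orderOf_dvd_iff_pow_eq_one.1 (orderOf_dvd_ordCompl (pow_card_hom D₂) hD₂p)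
    have e2 : D₁ ^ m = 1 := orderOf_dvd_iff_pow_eq_one.1 (orderOf_dvd_ordCompl (pow_card_hom D₁) hD₁p)
    have e3 := (mul_pow (l ^ d) D₁ m).symm.trans ((congrArg (· ^ m) h7).trans e1)
    rw [e2] at e3
    exact (mul_one _).symm.trans e3
  have h9 : l = 1 := by
    replace h8 : l ^ (d * m) = 1 := (pow_mul l d m).trans h8
    have hco : Nat.Coprime (p ^ a) (d * m) :=
      Nat.Coprime.pow_left a (Nat.Coprime.mul_right (hp.out.coprime_iff_not_dvd.2 hdp) hcm)
    have h10 := (pow_gcd_eq_one (a := l) (m := p ^ a) (n := d * m)).2 ⟨hl, h8⟩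
    rw [Nat.Coprime.gcd_eq_one hco] at h10
    exact (pow_one l).symm.trans h10
  rw [h9]
  funext g
  simp

end Modular

end CfsgLib.Blocks.OrbitSums
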