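import Cfsg.Agent.Lib.Blocks.OrbitExtension
import Cfsg.Agent.Lib.Clifford.CyclicGlauberman

/-!
# From orbit congruences to the principal block

If the scalars of `χ` agree with the augmentation on the elements supported in a normal subgroup
`H` of `p`-power index, they agree everywhere, so `χ` lies in the principal block. Galois
automorphisms fixing the roots of unity of order prime to `p` keep the congruences.
-/

set_option autoImplicit false
set_option linter.unusedSectionVars false
set_option linter.style.haveILetI false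

namespace CfsgLib.Blocks.OrbitSums

open MonoidAlgebra Cfsg CfsgLib.CharTheory CfsgLib.Clifford

variable {G : Type*} [Group G] [Finite G]

/-- The scalars of `χ` agree with the augmentation on the elements centralizing `J` and supported
in `J`. -/
def Good (M : Ideal AlgInt) (χ : G → ℂ) (J : Subgroup G) : Prop :=
  ∀ z : MonoidAlgebra ℂ G, NInv J z → Loc M z → (∀ x, z.coeff x ≠ 0 → x ∈ J) →
    MemLocalIdeal M (omega χ z - omega (fun _ : G => (1 : ℂ)) z)

theorem omega_aug_fsum (S : Finset G) :
    omega (fun _ : G => (1 : ℂ)) (fsum ℂ S) = (S.card : ℂ) := by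
  rw [omega_fsum]; simp

theorem coeff_fsum_ne_zero {S : Finset G} {x : G} (h : (fsum ℂ S).coeff x ≠ 0) : x ∈ S := by
  classical
  rw [fsum, coeff_finsetSum_apply] at h
  obtain ⟨y, hy, hyx⟩ := Finset.exists_ne_zero_of_sum_ne_zero h
  rw [coeff_single, Finsupp.single_apply] at hyx
  split at hyx
  next e => exact e ▸ hy
  next => exact absurd rfl hyx

theorem coeff_conj {J : Subgroup G} {z : MonoidAlgebra ℂ G} (hz : NInv J z) {n : G} (hn : n ∈ J)
    (x : G) : z.coeff (n * x * n⁻¹) = z.coeff x := by
  have h1 := congrArg (fun w : MonoidAlgebra ℂ G => w.coeff (n * x)) (hz n hn).eq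
  simp only [coeff_single_mul_apply, coeff_mul_single_apply, one_mul, mul_one,
    inv_mul_cancel_left] at h1
  exact h1.symm

section Modular

variable {p : ℕ} {M : Ideal AlgInt} [M.IsPrime]

theorem good_of_orbits {χ : G → ℂ} {J : Subgroup G}
    (h : ∀ g ∈ J, MemLocalIdeal M (omega χ (fsum ℂ (orb J g)) - ((orb J g).card : ℂ))) :
    Good M χ J := by
  classical
  haveI := Fintype.ofFinite G
  intro z hz hl hs
  rw [omega_eq_sum, omega_eq_sum, Finset.sum_div, Finset.sum_div, ← Finset.sum_sub_distrib,
    ← Finset.sum_fiberwise_of_maps_to (g := orb J)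
      (fun x hx => Finset.mem_image_of_mem (orb J) hx)]
  refine memLocalIdeal_sum fun O hO => ?_
  obtain ⟨g, -, rfl⟩ := Finset.mem_image.1 hO
  have hfib : (Finset.univ.filter fun x : G => orb J x = orb J g) = orb J g := by
    ext x
    rw [Finset.mem_filter]
    exact ⟨fun ⟨_, e⟩ => e ▸ self_mem_orb x, fun hx => ⟨Finset.mem_univ _, orb_eq_of_mem hx⟩⟩
  rw [hfib]
  have e : ∀ x ∈ orb J g, z.coeff x * χ x / χ 1 - z.coeff x * (1 : ℂ) / 1 =
      z.coeff g * (χ x / χ 1 - 1) := fun x hx => by
    obtain ⟨n, hn, rfl⟩ := mem_orb.1 hx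
    rw [coeff_conj hz hn]
    ring
  rw [Finset.sum_congr rfl e, ← Finset.mul_sum]
  by_cases hg : g ∈ J
  · refine memLocalIdeal_mul_left (hl g) ?_
    have := h g hg
    rw [omega_fsum] at this
    simpa [Finset.sum_sub_distrib] using this
  · have h0 : z.coeff g = 0 := by
      by_contra hne
      exact hg (hs g hne)
    rw [h0, zero_mul]
    exact memLocalIdeal_zero

/-- Congruence on the orbits of `N` inside `J` gives congruence on `J`. -/
theorem good_of_congr {χ : G → ℂ} {N J : Subgroup G} [hJ : J.Normal] (hNJ : N ≤ J)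
    (h : ∀ g ∈ J, MemLocalIdeal M (omega χ (fsum ℂ (orb N g)) - ((orb N g).card : ℂ))) :
    Good M χ J := by
  classical
  refine good_of_orbits fun g hg => ?_
  rw [omega_fsum]
  have hfib : ∀ x ∈ orb J g, ((orb J g).filter fun y => orb N y = orb N x) = orb N x := by
    intro x hx
    ext y
    rw [Finset.mem_filter]
    refine ⟨fun ⟨_, e⟩ => e ▸ self_mem_orb y, fun hy => ⟨?_, orb_eq_of_mem hy⟩⟩
    obtain ⟨n, hn, rfl⟩ := mem_orb.1 hy
    exact orb_invariant g n (hNJ hn) x hx
  have hcast : ((orb J g).card : ℂ) = ∑ x ∈ orb J g, (1 : ℂ) := by simp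
  rw [hcast, ← Finset.sum_sub_distrib,
    ← Finset.sum_fiberwise_of_maps_to (g := orb N) (fun x hx => Finset.mem_image_of_mem _ hx)]
  refine memLocalIdeal_sum fun O hO => ?_
  obtain ⟨x, hx, rfl⟩ := Finset.mem_image.1 hO
  rw [hfib x hx]
  obtain ⟨n, hn, rfl⟩ := mem_orb.1 hx
  have := h _ (hJ.conj_mem g hg n)
  rw [omega_fsum] at this
  simpa [Finset.sum_sub_distrib] using this

variable [hp : Fact p.Prime] (hM : IsPModular p M)
variable {N : Subgroup G} [N.Normal]

include hM

/-- Going up a step with abelian quotient of exponent `p`. -/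
theorem good_step {χ : G → ℂ} (hχ : IsCharacter G χ)
    (hres : IsIrrCharacter N (fun x : N => χ x)) {K J : Subgroup G} [K.Normal]
    (hNK : N ≤ K) (hKJ : K ≤ J) (hcomm : ∀ a ∈ J, ∀ g ∈ J, a * g * a⁻¹ * g⁻¹ ∈ K)
    (hpow : ∀ g ∈ J, g ^ p ∈ K) (hK : Good M χ K) : Good M χ J := by
  classical
  haveI : M.IsMaximal := hM.2.1
  haveI := charP_res hM
  refine good_of_orbits fun g hg => ?_
  set S := orb J g with hS
  set w := fsum ℂ S with hw
  have hwJ : NInv J w := nInv_orb g
  have hwK : NInv K w := fun n hn => hwJ n (hKJ hn)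
  have hwN : NInv N w := fun n hn => hwK n (hNK hn)
  have hone : IsCharacter G (fun _ : G => (1 : ℂ)) := IsIrrCharacter.isCharacter isIrrCharacter_one
  have hone' : IsIrrCharacter N (fun _ : N => (1 : ℂ)) := isIrrCharacter_one
  have hcoset : ∀ x ∈ S, (x : G ⧸ K) = (g : G ⧸ K) := fun x hx => by
    obtain ⟨a, ha, rfl⟩ := mem_orb.1 hx
    rw [QuotientGroup.eq_iff_div_mem, div_eq_mul_inv]
    exact hcomm a ha g hg
  have hsupp : Supp K w (g : G ⧸ K) := fun x hx => hcoset x (coeff_fsum_ne_zero hx)
  have hpows : ∀ k : ℕ, Supp K (w ^ k) ((g : G ⧸ K) ^ k) ∧ Loc M (w ^ k) ∧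
      omega χ (w ^ k) = omega χ w ^ k ∧
      omega (fun _ : G => (1 : ℂ)) (w ^ k) = (S.card : ℂ) ^ k := by
    intro k
    induction k with
    | zero =>
      refine ⟨fun x hx => ?_, fun x => ?_, ?_, ?_⟩
      · rw [pow_zero, one_def, coeff_single, Finsupp.single_apply] at hx
        split at hx
        next e => rw [← e, pow_zero, QuotientGroup.mk_one]
        next => exact absurd rfl hx
      · rw [pow_zero, one_def, coeff_single, Finsupp.single_apply]
        split
        · simpa using memLocalRing_natCast (M := M) 1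
        · simpa using memLocalRing_natCast (M := M) 0
      · rw [pow_zero, pow_zero, omega_one]
        simpa using apply_one_ne_zero_of_isIrr hres
      · rw [pow_zero, pow_zero, omega_one]
        exact one_ne_zero
    | succ k ih =>
      obtain ⟨h1, h2, h3, h4⟩ := ih
      refine ⟨?_, ?_, ?_, ?_⟩
      · rw [pow_succ, pow_succ]
        exact h1.mul hsupp
      · rw [pow_succ]
        exact h2.mul (loc_fsum _)
      · rw [pow_succ', omega_mul_of_nInv hχ hres hwN, h3, pow_succ']
      · rw [pow_succ', omega_mul_of_nInv hone hone' hwN, h4, omega_aug_fsum, pow_succ']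
  obtain ⟨h1, h2, h3, h4⟩ := hpows p
  have hmem : ∀ x, (w ^ p).coeff x ≠ 0 → x ∈ K := fun x hx => by
    rw [← QuotientGroup.eq_one_iff, h1 x hx, ← QuotientGroup.mk_pow, QuotientGroup.eq_one_iff]
    exact hpow g hg
  have hinv : NInv K (w ^ p) := fun n hn => (hwK n hn).pow_right p
  have h5 := hK (w ^ p) hinv h2 hmem
  rw [h3, h4] at h5
  have hloc : MemLocalRing M (omega χ w) := memLocalRing_omega_fsum hχ hres
    fun n hn x hx => orb_invariant g n (hKJ (hNK hn)) x hx
  refine (red_eq_red_iff (⟨_, hloc⟩ : locRing M) (S.card : locRing M)).1 ?_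
  have h6 : red M ((⟨_, hloc⟩ : locRing M) ^ p) = red M ((S.card : locRing M) ^ p) := by
    rw [red_eq_red_iff]
    push_cast
    exact h5
  rw [map_pow, map_pow, ← sub_eq_zero, ← sub_pow_char] at h6
  exact sub_eq_zero.1 (pow_eq_zero_iff hp.out.ne_zero |>.1 h6)

/-- Going up to the whole group through a series of steps of index `p`. -/
theorem good_top {χ : G → ℂ} (hχ : IsCharacter G χ)
    (hres : IsIrrCharacter N (fun x : N => χ x)) :
    ∀ (b : ℕ) (H : Subgroup G) [H.Normal], H.index = p ^ b → N ≤ H → Good M χ H →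
      Good M χ (⊤ : Subgroup G) := by
  intro b
  induction b using Nat.strong_induction_on with
  | _ b ih =>
    intro H _ hb hNH hH
    rcases Nat.eq_zero_or_pos b with rfl | hb0
    · rw [pow_zero, Subgroup.index_eq_one] at hb
      exact hb ▸ hH
    · have hq : IsPGroup p (G ⧸ H) := IsPGroup.of_card (n := b) hb
      haveI : Nontrivial (G ⧸ H) := Finite.one_lt_card_iff_nontrivial.1 (by
        rw [← Subgroup.index_eq_card, hb]
        exact Nat.one_lt_pow hb0.ne' hp.out.one_lt)
      haveI := hq.center_nontrivial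
      have hdvd : p ∣ Nat.card (Subgroup.center (G ⧸ H)) := by
        obtain ⟨k, hk0, hk⟩ := (hq.to_subgroup (Subgroup.center (G ⧸ H))).nontrivial_iff_card.1
          inferInstance
        exact hk ▸ dvd_pow_self p hk0.ne'
      obtain ⟨⟨c, hc⟩, hco⟩ := exists_prime_orderOf_dvd_card' p hdvd
      rw [Subgroup.orderOf_mk] at hco
      haveI hZn : (Subgroup.zpowers c).Normal := by
        constructor
        intro x hx y
        obtain ⟨i, rfl⟩ := Subgroup.mem_zpowers_iff.1 hx
        have hci : c ^ i ∈ Subgroup.center (G ⧸ H) := zpow_mem hc i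
        rw [Subgroup.mem_center_iff.1 hci y, mul_inv_cancel_right]
        exact hx
      set K := (Subgroup.zpowers c).comap (QuotientGroup.mk' H) with hK
      have hHK : H ≤ K := fun x hx => by
        rw [hK, Subgroup.mem_comap, QuotientGroup.mk'_apply, (QuotientGroup.eq_one_iff x).2 hx]
        exact one_mem _
      have hlt : H < K := lt_of_le_of_ne hHK fun e => by
        obtain ⟨y, hy⟩ := QuotientGroup.mk_surjective c
        have hyK : y ∈ K := by
          rw [hK, Subgroup.mem_comap, QuotientGroup.mk'_apply, hy]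
          exact Subgroup.mem_zpowers c
        rw [← e] at hyK
        rw [(QuotientGroup.eq_one_iff y).2 hyK] at hy
        rw [← hy, orderOf_one] at hco
        exact hp.out.one_lt.ne hco
      have hKd : K.index ∣ p ^ b := hb ▸ Subgroup.index_dvd_of_le hHK
      obtain ⟨k, hkb, hk⟩ := (Nat.dvd_prime_pow hp.out).1 hKd
      have hkb' : k < b := by
        refine lt_of_le_of_ne hkb fun e => ?_
        have h1 := Subgroup.index_strictAnti hlt
        rw [hb, hk, e] at h1
        exact lt_irrefl _ h1
      refine ih k hkb' K hk (hNH.trans hHK) (good_step hM hχ hres hNH hHK ?_ ?_ hH)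
      · intro a ha g hg
        rw [hK, Subgroup.mem_comap, QuotientGroup.mk'_apply, Subgroup.mem_zpowers_iff] at ha hg
        obtain ⟨i, hi⟩ := ha
        obtain ⟨j, hj⟩ := hg
        rw [← QuotientGroup.eq_one_iff]
        rw [QuotientGroup.mk_mul, QuotientGroup.mk_mul, QuotientGroup.mk_mul, QuotientGroup.mk_inv,
          QuotientGroup.mk_inv, ← hi, ← hj]
        group
      · intro g hg
        rw [hK, Subgroup.mem_comap, QuotientGroup.mk'_apply, Subgroup.mem_zpowers_iff] at hg
        obtain ⟨i, hi⟩ := hg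
        rw [← QuotientGroup.eq_one_iff, QuotientGroup.mk_pow, ← hi, ← zpow_natCast, zpow_comm,
          zpow_natCast, ← hco, pow_orderOf_eq_one, one_zpow]

omit hM in
/-- Congruence on the whole group means lying in the principal block. -/
theorem mem_principalBlock_of_good (χ : IrrCharacter G)
    (h : Good M (χ : G → ℂ) (⊤ : Subgroup G)) : χ ∈ principalBlock M G := by
  classical
  haveI := Fintype.ofFinite G
  intro g
  have e : fsum ℂ (orb (⊤ : Subgroup G) g) = classSum ℂ g := by
    rw [classSum_eq_sum, fsum]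
    refine Finset.sum_congr ?_ fun x _ => rfl
    ext x
    simp only [mem_orb, Subgroup.mem_top, true_and, Finset.mem_filter, Finset.mem_univ, isConj_iff]
  have h1 := h (fsum ℂ (orb ⊤ g)) (nInv_orb g) (loc_fsum _) fun x _ => Subgroup.mem_top x
  rw [e, omega_classSum (IsIrrCharacter.isClassFunction χ.2),
    omega_classSum (IsIrrCharacter.isClassFunction isIrrCharacter_one)] at h1
  exact memLocalIdeal_sub_comm.1 h1

/-- Powering by `t ≡ 1` modulo a multiple of the `p'`-part of the order does not move character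
values modulo `M`. -/
theorem memLocalIdeal_apply_pow_sub {χ : G → ℂ} (hχ : IsCharacter G χ) {t a m : ℕ}
    (hcard : Nat.card G = p ^ a * m) (ht : t ≡ 1 [MOD m]) (g : G) :
    MemLocalIdeal M (χ (g ^ t) - χ g) := by
  haveI : NeZero (Nat.card G) := ⟨Nat.card_pos.ne'⟩
  obtain ⟨d, l, hl, hpow⟩ := CfsgLib.Jordan.exists_roots_of_isCharacter hχ (pow_card_eq_one' (x := g))
  rw [hpow]
  nth_rw 1 [← pow_one g]
  rw [hpow, ← Finset.sum_sub_distrib]
  refine memLocalIdeal_sum fun i _ => ?_
  have hl0 : l i ≠ 0 := fun e => by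
    have h := hl i
    rw [e, zero_pow Nat.card_pos.ne'] at h
    exact zero_ne_one h
  have h1 : (l i ^ p ^ a) ^ t = (l i ^ p ^ a) ^ 1 := by
    refine pow_eq_pow_of_modEq ht ?_
    rw [← pow_mul, ← hcard, hl i]
  have h2 : (l i ^ t / l i) ^ p ^ a = 1 := by
    rw [div_pow, ← pow_mul, mul_comm, pow_mul, h1, pow_one, div_self (pow_ne_zero _ hl0)]
  have h3 := memLocalIdeal_mul_right (memLocalIdeal_sub_one_of_pow_prime_pow hM h2)
    (memLocalRing_of_isIntegral (M := M) (isIntegral_of_pow_eq_one Nat.card_pos.ne' (hl i)))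
  rw [sub_mul, div_mul_cancel₀ _ hl0, one_mul] at h3
  simpa using h3

/-- The congruence passes to Galois conjugates that fix the roots of unity of order prime to `p`. -/
theorem congr_pow {χ : G → ℂ} (hχ : IsCharacter G χ) {d : ℕ} (hd : χ 1 = d) (hdp : ¬ p ∣ d)
    {t a m : ℕ} (hcard : Nat.card G = p ^ a * m) (ht : t ≡ 1 [MOD m]) (hc : Congr M N χ) :
    Congr M N (fun g => χ (g ^ t)) := by
  intro g
  have h : MemLocalIdeal M (∑ x ∈ orb N g, (χ (x ^ t) - χ x) / χ 1) := by
    refine memLocalIdeal_sum fun x _ => ?_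
    rw [hd, div_eq_mul_inv]
    exact memLocalIdeal_mul_right (memLocalIdeal_apply_pow_sub hM hχ hcard ht x)
      (memLocalRing_inv_natCast hM hdp)
  have h2 := memLocalIdeal_add h (hc g)
  rw [omega_fsum, Finset.sum_congr rfl (fun x _ => sub_div _ _ _), Finset.sum_sub_distrib,
    sub_add_sub_cancel] at h2
  rw [omega_fsum]
  simpa using h2

end Modular

end CfsgLib.Blocks.OrbitSums
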