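import Cfsg.Agent.Lib.Blocks.OrbitGood

/-!
# `p`-rational extensions in the principal block

The canonical extension of a `p`-rational principal block character is `p`-rational and extends
further, `p`-rationally and inside the principal block, along a `p`-power index.
-/

set_option autoImplicit false
set_option linter.unusedSectionVars false
set_option linter.style.haveILetI false

namespace CfsgLib.Blocks.OrbitSums

open MonoidAlgebra Cfsg CfsgLib.CharTheory CfsgLib.Clifford CfsgLib.CharDegreesTheory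
open CfsgLib.Jordan (cycField)

universe u

variable {G : Type u} [Group G] [Finite G]

/-- A ring automorphism fixing a root of unity fixes the field it generates. -/
theorem ringAut_eq_self_of_mem_cycField {m : ℕ} (σ : ℂ ≃+* ℂ)
    (hσ : σ (Complex.exp (2 * Real.pi * Complex.I / m)) = Complex.exp (2 * Real.pi * Complex.I / m))
    {x : ℂ} (hx : x ∈ cycField m) : σ x = x := by
  induction hx using IntermediateField.adjoin_induction with
  | mem y hy => rw [Set.mem_singleton_iff.1 hy]; exact hσ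
  | algebraMap q => simp
  | add a b _ _ ha hb => rw [map_add, ha, hb]
  | inv a _ ha => rw [map_inv₀, ha]
  | mul a b _ _ ha hb => rw [map_mul, ha, hb]

/-- Character values at exponent `L` fixed by all powers `t ≡ 1` modulo a divisor `n` of `L` lie in
the cyclotomic field of order `n`. -/
theorem mem_cycField_of_fixed {χ : G → ℂ} (hχ : IsCharacter G χ) {g : G} {L n : ℕ} [NeZero L]
    [NeZero n] (hnL : n ∣ L) (hg : g ^ L = 1)
    (hfix : ∀ t : ℕ, t.Coprime L → t ≡ 1 [MOD n] → χ (g ^ t) = χ g) : χ g ∈ cycField n := by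
  haveI := CfsgLib.Jordan.cycField_isCyclotomic L
  haveI : FiniteDimensional ℚ (cycField L) :=
    IsCyclotomicExtension.finiteDimensional {L} ℚ (cycField L)
  haveI hG : IsGalois ℚ (cycField L) := IsCyclotomicExtension.isGalois {L} ℚ (cycField L)
  have hζn := Complex.isPrimitiveRoot_exp n (NeZero.ne n)
  have hζL : Complex.exp (2 * Real.pi * Complex.I / n) ^ L = 1 := by
    obtain ⟨c, rfl⟩ := hnL
    rw [pow_mul, hζn.pow_eq_one, one_pow]
  have hle : cycField n ≤ cycField L := IntermediateField.adjoin_le_iff.2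
    (Set.singleton_subset_iff.2 (CfsgLib.Jordan.mem_cycField_of_pow_eq_one hζL))
  set F := IntermediateField.restrict hle with hF
  let z : cycField L := ⟨χ g, CfsgLib.Jordan.mem_cycField hχ hg⟩
  have hz : z ∈ IntermediateField.fixedField F.fixingSubgroup := by
    rw [IntermediateField.mem_fixedField_iff]
    intro σ hσ
    obtain ⟨t, htc, ht⟩ := CfsgLib.Jordan.exists_galois_pow L σ
    let w : cycField L := ⟨_, CfsgLib.Jordan.mem_cycField_of_pow_eq_one hζL⟩
    have hwF : w ∈ F := (IntermediateField.mem_restrict hle w).2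
      (IntermediateField.mem_adjoin_simple_self ℚ _)
    have h1 : σ w = w := (IntermediateField.mem_fixingSubgroup_iff _ _).1 hσ w hwF
    have h2 : Complex.exp (2 * Real.pi * Complex.I / n) ^ t =
        Complex.exp (2 * Real.pi * Complex.I / n) ^ 1 := by
      rw [pow_one]
      exact (ht w hζL).symm.trans (congrArg (fun x : cycField L => (x : ℂ)) h1)
    have htn : t ≡ 1 [MOD n] := by
      rw [hζn.eq_orderOf]
      exact (hζn.isOfFinOrder (NeZero.ne n)).pow_eq_pow_iff_modEq.1 h2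
    refine Subtype.ext ?_
    obtain ⟨d, l, hl, hpow⟩ := CfsgLib.Jordan.exists_roots_of_isCharacter hχ hg
    let W : Fin d → cycField L := fun i =>
      ⟨l i, CfsgLib.Jordan.mem_cycField_of_pow_eq_one (hl i)⟩
    have hzW : z = ∑ i, W i := Subtype.ext (by
      show χ g = _
      nth_rw 1 [← pow_one g]
      rw [hpow, AddSubmonoidClass.coe_finsetSum]
      simp [W])
    show ((σ z : cycField L) : ℂ) = χ g
    rw [← hfix t htc htn, hpow, hzW, map_sum, AddSubmonoidClass.coe_finsetSum]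
    exact Finset.sum_congr rfl fun i _ => ht (W i) (hl i)
  have hfx := @IsGalois.fixedField_fixingSubgroup ℚ _ (cycField L) _ _ F _
    (by convert hG; exact Subsingleton.elim _ _)
  rw [hfx] at hz
  exact (IntermediateField.mem_restrict hle z).1 hz

/-- A `p`-rational character has determinantal order prime to `p` for odd `p`. -/
theorem detPrime_of_pRational {p : ℕ} [hp : Fact p.Prime] (hp2 : p ≠ 2) {χ : G → ℂ}
    (hχ : IsCharacter G χ) {m : ℕ} (hm : ¬ p ∣ m) (hval : ∀ g, χ g ∈ cycField m) :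
    DetPrime p χ := by
  obtain ⟨l, hl⟩ := exists_detChar_eq hχ
  refine ⟨l, hl, fun hdiv => ?_⟩
  set a := (Nat.card G).factorization p
  set k := Nat.card G / p ^ a with hk
  have hpak : p ^ a * k = Nat.card G := Nat.ordProj_mul_ordCompl_eq_self _ p
  have hpk : Nat.Coprime p k := Nat.coprime_ordCompl hp.out Nat.card_pos.ne'
  have hco : Nat.Coprime (p ^ a) (m * k) :=
    Nat.Coprime.pow_left a (Nat.Coprime.mul_right (hp.out.coprime_iff_not_dvd.2 hm) hpk)
  obtain ⟨t, ht2, ht1⟩ := Nat.chineseRemainder hco 2 1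
  have htc : Nat.Coprime t (p ^ a * (m * k)) := by
    refine Nat.Coprime.mul_right ?_ ?_
    · rcases Nat.eq_zero_or_pos a with h0 | ha0
      · rw [h0, pow_zero]; exact Nat.coprime_one_right t
      · refine Nat.Coprime.pow_right a ((hp.out.coprime_iff_not_dvd.2 fun h => ?_).symm)
        have h2 : t ≡ 2 [MOD p] := ht2.of_dvd (dvd_pow_self p ha0.ne')
        have h3 : (2 : ℕ) ≡ 0 [MOD p] := h2.symm.trans (Nat.modEq_zero_iff_dvd.2 h)
        exact hp2 ((Nat.prime_dvd_prime_iff_eq hp.out Nat.prime_two).1 (Nat.modEq_zero_iff_dvd.1 h3))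
    · rw [Nat.coprime_iff_gcd_eq_one, ht1.gcd_eq, Nat.gcd_one_left]
  have hm0 : m ≠ 0 := fun e => hm (e ▸ dvd_zero p)
  haveI : NeZero (p ^ a * (m * k)) := ⟨Nat.mul_ne_zero (pow_ne_zero _ hp.out.ne_zero)
    (Nat.mul_ne_zero hm0 fun e => Nat.card_pos.ne' (by rw [← hpak, e, mul_zero]))⟩
  obtain ⟨σ, hσ⟩ := exists_ringAut_complex (p ^ a * (m * k)) t htc
  have hζ := Complex.isPrimitiveRoot_exp m hm0
  have hfix : σ (Complex.exp (2 * Real.pi * Complex.I / m)) =
      Complex.exp (2 * Real.pi * Complex.I / m) := by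
    rw [hσ _ (by rw [show p ^ a * (m * k) = m * (p ^ a * k) by ring, pow_mul, hζ.pow_eq_one, one_pow])]
    conv_rhs => rw [← pow_one (Complex.exp _)]
    exact pow_eq_pow_of_modEq (ht1.of_dvd (dvd_mul_right m k)) hζ.pow_eq_one
  have hσχ : (fun g => σ (χ g)) = χ :=
    funext fun g => ringAut_eq_self_of_mem_cycField σ hfix (hval g)
  have h1 := detChar_ringAut σ hχ
  rw [hσχ, hl] at h1
  have hlt : l ^ t = l ^ 1 := by
    rw [pow_one]
    refine MonoidHom.ext fun g => Units.ext ?_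
    rw [MonoidHom.pow_apply, Units.val_pow_eq_pow_val]
    refine ((hσ _ ?_).symm.trans (congrFun h1 g).symm)
    rw [show p ^ a * (m * k) = Nat.card G * m by rw [← hpak]; ring, pow_mul,
      ← Units.val_pow_eq_pow_val, ← map_pow, pow_card_eq_one', map_one, Units.val_one, one_pow]
  have hl1 : IsOfFinOrder l := isOfFinOrder_iff_pow_eq_one.2 ⟨_, Nat.card_pos, pow_card_hom l⟩
  have hlo : t ≡ 1 [MOD orderOf l] := hl1.pow_eq_pow_iff_modEq.1 hlt
  have ha0 : a ≠ 0 := by
    intro h0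
    have := hdiv.trans (orderOf_dvd_of_pow_eq_one (pow_card_hom l))
    rw [← hpak, h0, pow_zero, one_mul] at this
    exact (hp.out.coprime_iff_not_dvd.1 hpk) this
  have h4 : (2 : ℕ) ≡ 1 [MOD p] :=
    ((ht2.of_dvd (dvd_pow_self p ha0)).symm).trans (hlo.of_dvd hdiv)
  have h5 : (p : ℤ) ∣ 1 - 2 := Nat.modEq_iff_dvd.1 h4
  rw [show (1 : ℤ) - 2 = -1 by norm_num, dvd_neg] at h5
  exact hp.out.not_dvd_one (Int.natCast_dvd_natCast.1 (by simpa using h5))

theorem isIrrCharacter_comp_mulEquiv {H : Type*} [Group H] [Finite H] (f : H ≃* G) {χ : G → ℂ}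
    (hχ : IsIrrCharacter G χ) : IsIrrCharacter H (fun x => χ (f x)) := by
  obtain ⟨k, ρ, hρ, rfl⟩ := hχ
  let σ : Representation ℂ H (Fin k → ℂ) := ρ.comp f.toMonoidHom
  have he : (σ.comp f.symm.toMonoidHom : Representation ℂ G (Fin k → ℂ)) = ρ :=
    MonoidHom.ext fun g => congrArg ρ (f.apply_symm_apply g)
  exact ⟨k, σ, isIrreducible_of_comp σ f.symm.toMonoidHom (he.symm ▸ hρ), rfl⟩

theorem DetPrime.comp {p : ℕ} {H : Type*} [Group H] [Finite H] (f : H →* G) {χ : G → ℂ}
    (hχ : IsCharacter G χ) (h : DetPrime p χ) : DetPrime p (fun x => χ (f x)) := by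
  obtain ⟨l, hl, hlp⟩ := h
  refine ⟨l.comp f, detChar_comp f hχ hl, fun hd => hlp (hd.trans (orderOf_dvd_of_pow_eq_one ?_))⟩
  refine MonoidHom.ext fun x => ?_
  rw [MonoidHom.pow_apply, MonoidHom.comp_apply, ← MonoidHom.pow_apply, pow_orderOf_eq_one]
  rfl

/-- The congruence is preserved by automorphisms fixing the normal subgroup. -/
theorem Congr.comp_mulEquiv {M : Ideal AlgInt} {N : Subgroup G} {χ : G → ℂ} (h : Congr M N χ)
    (α : G ≃* G) (hα : ∀ x : G, α x ∈ N ↔ x ∈ N) : Congr M N (fun x => χ (α x)) := by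
  classical
  intro g
  have e : orb N (α g) = (orb N g).map α.toEquiv.toEmbedding := by
    ext x
    simp only [mem_orb, Finset.mem_map, Equiv.coe_toEmbedding, MulEquiv.toEquiv_eq_coe,
      EquivLike.coe_coe]
    constructor
    · rintro ⟨n, hn, rfl⟩
      refine ⟨α.symm n * g * (α.symm n)⁻¹, ⟨α.symm n, ?_, rfl⟩, ?_⟩
      · exact (hα _).1 (by rwa [α.apply_symm_apply])
      · simp
    · rintro ⟨y, ⟨n, hn, rfl⟩, rfl⟩
      exact ⟨α n, (hα n).2 hn, by simp⟩
  have h1 := h (α g)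
  rw [e, Finset.card_map, omega_fsum, Finset.sum_map] at h1
  rw [omega_fsum]
  simpa using h1

/-- The extension theorem. -/
theorem exists_pRational_extension {p : ℕ} [hp : Fact p.Prime] (hp2 : p ≠ 2) {M : Ideal AlgInt}
    (hM : IsPModular p M) (N : Subgroup G) [hN : N.Normal] (θ : IrrCharacter N)
    (hinv : ∀ g : G, ∀ n n' : N, (n' : G) = g * (n : G) * g⁻¹ → (θ : N → ℂ) n' = (θ : N → ℂ) n)
    (hdeg : ¬ p ∣ charDegree (θ : N → ℂ)) {m : ℕ} (hm : ¬ p ∣ m)
    (hval : ∀ n : N, (θ : N → ℂ) n ∈ cycField m) (hB : θ ∈ principalBlock M N)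
    (Q : Sylow p N) {b : ℕ}
    (hidx : (N ⊔ Subgroup.centralizer (((Q : Subgroup N).map N.subtype : Subgroup G) : Set G)).index
      = p ^ b) :
    ∃ χ : IrrCharacter G, χ ∈ principalBlock M G ∧
      (∃ n : ℕ, ¬ p ∣ n ∧ ∀ g : G, (χ : G → ℂ) g ∈ cycField n) ∧
      ∀ n : N, (χ : G → ℂ) n = (θ : N → ℂ) n := by
  classical
  haveI : M.IsMaximal := hM.2.1
  haveI : M.IsPrime := hM.2.1.isPrime
  set C := Subgroup.centralizer (((Q : Subgroup N).map N.subtype : Subgroup G) : Set G) with hC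
  set H : Subgroup G := N ⊔ C with hH
  have hNH : N ≤ H := le_sup_left
  have hNn : (N.map (MulEquiv.refl G).toMonoidHom) = N := Subgroup.map_id _
  haveI hHn : H.Normal := by
    rw [← Subgroup.normalizer_eq_top_iff, eq_top_iff, ← Sylow.normalizer_sup_eq_top Q]
    refine sup_le (fun g hg => ?_) (hNH.trans Subgroup.le_normalizer)
    rw [Subgroup.mem_normalizer_iff] at hg
    have hconjC : ∀ (g : G), (∀ h, h ∈ (Q : Subgroup N).map N.subtype ↔
        g * h * g⁻¹ ∈ (Q : Subgroup N).map N.subtype) → ∀ c ∈ C, g * c * g⁻¹ ∈ C := by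
      intro g hg c hc
      rw [hC, Subgroup.mem_centralizer_iff] at hc ⊢
      intro y hy
      have h1 : g⁻¹ * y * g ∈ (Q : Subgroup N).map N.subtype := (hg _).2 (by
        rw [show g * (g⁻¹ * y * g) * g⁻¹ = y by group]; exact hy)
      calc y * (g * c * g⁻¹) = g * ((g⁻¹ * y * g) * c) * g⁻¹ := by group
        _ = g * (c * (g⁻¹ * y * g)) * g⁻¹ := by rw [hc _ h1]
        _ = g * c * g⁻¹ * y := by group
    have hgi : ∀ h, h ∈ (Q : Subgroup N).map N.subtype ↔
        g⁻¹ * h * g⁻¹⁻¹ ∈ (Q : Subgroup N).map N.subtype := fun h => by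
      rw [inv_inv, hg (g⁻¹ * h * g), show g * (g⁻¹ * h * g) * g⁻¹ = h by group]
    rw [Subgroup.mem_normalizer_iff]
    intro h
    constructor
    · intro hh
      obtain ⟨n, hn, c, hc, rfl⟩ := Subgroup.mem_sup_of_normal_left.1 hh
      rw [show g * (n * c) * g⁻¹ = (g * n * g⁻¹) * (g * c * g⁻¹) by group]
      exact Subgroup.mul_mem_sup (hN.conj_mem n hn g) (hconjC g hg c hc)
    · intro hh
      obtain ⟨n, hn, c, hc, he⟩ := Subgroup.mem_sup_of_normal_left.1 hh
      rw [show h = (g⁻¹ * n * g⁻¹⁻¹) * (g⁻¹ * c * g⁻¹⁻¹) by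
        calc h = g⁻¹ * (g * h * g⁻¹) * g⁻¹⁻¹ := by group
          _ = g⁻¹ * (n * c) * g⁻¹⁻¹ := by rw [he]
          _ = _ := by group]
      exact Subgroup.mul_mem_sup (hN.conj_mem n hn g⁻¹) (hconjC g⁻¹ hgi c hc)
  set N' : Subgroup H := N.subgroupOf H with hN'
  let e : N' ≃* N := Subgroup.subgroupOfEquivOfLe hNH
  have he : ∀ x : N', ((e x : N) : G) = ((x : H) : G) := fun x => rfl
  let θ' : IrrCharacter N' :=
    ⟨fun x => (θ : N → ℂ) (e x), isIrrCharacter_comp_mulEquiv e θ.2⟩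
  have hθ'B : θ' ∈ principalBlock M N' := by
    intro x
    have h1 := BlockLocal.centralChar_comp_equiv e (θ : N → ℂ) x
    have h2 := BlockLocal.centralChar_comp_equiv e (fun _ : N => (1 : ℂ)) x
    show MemLocalIdeal M (centralChar (fun _ : N' => (1 : ℂ)) x -
      centralChar (fun y => (θ : N → ℂ) (e y)) x)
    rw [h1, h2]
    exact hB (e x)
  have hdeg' : ¬ p ∣ charDegree (θ' : N' → ℂ) := by
    show ¬ p ∣ charDegree (fun x => (θ : N → ℂ) (e x))
    simpa [charDegree] using hdeg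
  have hθc := IsIrrCharacter.isCharacter θ.2
  have hdet' : DetPrime p (θ' : N' → ℂ) :=
    (detPrime_of_pRational hp2 hθc hm hval).comp e.toMonoidHom hθc
  let Q' : Sylow p N' := Q.mapSurjective (f := e.symm.toMonoidHom) e.symm.surjective
  have hcov' : N' ⊔ Subgroup.centralizer
      (((Q' : Subgroup N').map N'.subtype : Subgroup H) : Set H) = ⊤ := by
    refine eq_top_iff.2 fun x _ => ?_
    obtain ⟨n, hn, c, hc, hnc⟩ := Subgroup.mem_sup_of_normal_left.1 x.2
    rw [show x = ⟨n, hNH hn⟩ * (⟨c, Subgroup.mem_sup_right hc⟩ : H) from Subtype.ext hnc.symm]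
    refine Subgroup.mul_mem_sup (Subgroup.mem_subgroupOf.2 hn) (Subgroup.mem_centralizer_iff.2 ?_)
    rintro _ ⟨y, hy, rfl⟩
    rw [show (Q' : Subgroup N') = (Q : Subgroup N).map e.symm.toMonoidHom from
      Sylow.coe_mapSurjective _ _] at hy
    obtain ⟨u, hu, rfl⟩ := hy
    exact Subtype.ext (Subgroup.mem_centralizer_iff.1 hc _ ⟨u, hu, rfl⟩)
  have hinv' : ∀ (g : H) (x : N'), (θ' : N' → ℂ) (MulAut.conjNormal g x) = (θ' : N' → ℂ) x :=
    fun g x => hinv (g : G) (e x) (e (MulAut.conjNormal g x)) (by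
      rw [he, he, MulAut.conjNormal_apply]; rfl)
  obtain ⟨χH, hχH, hχHθ, hcongH, hdetH⟩ :=
    exists_congr_extension hM Q' hcov' θ' hθ'B hinv' hdeg' hdet'
  have hχHc := IsIrrCharacter.isCharacter hχH
  set d := charDegree (θ' : N' → ℂ) with hd
  have hθ'1 : (θ' : N' → ℂ) 1 = d := by
    obtain ⟨k, ρ, _, hρ⟩ := θ'.2
    have h1 : (θ' : N' → ℂ) 1 = (k : ℂ) := by
      rw [← hρ, Representation.char_one, Module.finrank_fin_fun]
    rw [hd, charDegree, h1]
    simp
  have hχH1 : χH 1 = (d : ℂ) := by rw [← hθ'1, ← hχHθ 1]; rfl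
  have huniq : ∀ χ' : H → ℂ, IsIrrCharacter H χ' → (∀ n : N', χ' n = (θ' : N' → ℂ) n) →
      Congr M N' χ' → DetPrime p χ' → χ' = χH := fun χ' h1 h2 h3 h4 =>
    congr_extension_unique hM Q' hcov' θ'.2 hθ'1 hdeg' hχH hχHθ hcongH hdetH h1 h2 h3 h4
  -- invariance under `G`
  have hHinv : ∀ (g : G) (x : H), χH (MulAut.conjNormal g x) = χH x := by
    intro g
    let α : H ≃* H := MulAut.conjNormal g
    have hα : ∀ x : H, α x ∈ N' ↔ x ∈ N' := fun x => by
      rw [hN', Subgroup.mem_subgroupOf, Subgroup.mem_subgroupOf,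
        show ((α x : H) : G) = g * x * g⁻¹ from MulAut.conjNormal_apply g x]
      exact hN.mem_comm_iff.trans (by rw [← mul_assoc, inv_mul_cancel, one_mul])
    have h1 := huniq (fun x => χH (α x)) (isIrrCharacter_comp_mulEquiv α hχH) (fun n => by
        rw [show α (n : H) = ((⟨α n, (hα _).2 n.2⟩ : N') : H) from rfl, hχHθ]
        exact hinv g (e n) _ (by rw [he, he]; exact MulAut.conjNormal_apply g (n : H)))
      (hcongH.comp_mulEquiv α hα) (hdetH.comp α.toMonoidHom hχHc)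
    exact fun x => congrFun h1 x
  obtain ⟨l, hl, hlp⟩ := hdetH
  have hcop : ∀ k, ¬ p ∣ k → Nat.Coprime H.index k := fun k hk =>
    hidx ▸ Nat.Coprime.pow_left b (hp.out.coprime_iff_not_dvd.2 hk)
  have hlinv : ∀ (g : G) (x : H), l ⟨g * x * g⁻¹, hHn.conj_mem (x : G) x.2 g⟩ = l x := by
    intro g x
    have h1 := detChar_comp (MulAut.conjNormal g : H ≃* H).toMonoidHom hχHc hl
    rw [show (fun y : H => χH ((MulAut.conjNormal g : H ≃* H).toMonoidHom y)) = χH from
      funext (hHinv g), hl] at h1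
    conv_rhs => rw [linFun_injective h1]
    exact congrArg l (Subtype.ext (MulAut.conjNormal_apply g x).symm)
  obtain ⟨ν, ⟨hν, hνo⟩, -⟩ := exists_unique_extension_linear hlinv (hcop _ hlp)
  have hνdet : ∀ x : H, (ν x : ℂ) = detChar χH x := fun x => by rw [hν, hl]; rfl
  have hinvH : ∀ (g : G) (x : H), χH ⟨g * x * g⁻¹, hHn.conj_mem (x : G) x.2 g⟩ = χH x :=
    fun g x => (congrArg χH (Subtype.ext (MulAut.conjNormal_apply g x).symm)).trans (hHinv g x)
  obtain ⟨η, hη, hηH⟩ := exists_extension_of_det hχH hinvH hχH1 (hcop d hdeg') ν hνdet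
  obtain ⟨χ, ⟨hχ, hχH', hχdet⟩, hχu⟩ :=
    existsUnique_extension_det hχH hχH1 (hcop d hdeg') hη hηH ν hνdet
  have hχc := IsIrrCharacter.isCharacter hχ
  have hχN : ∀ n : N, χ n = (θ : N → ℂ) n := fun n => by
    have h1 : χ ((⟨n, hNH n.2⟩ : H) : G) = χH ⟨n, hNH n.2⟩ := hχH' _
    rw [show χH ⟨n, hNH n.2⟩ = (θ : N → ℂ) (e ⟨⟨n, hNH n.2⟩, Subgroup.mem_subgroupOf.2 n.2⟩) from
      hχHθ ⟨⟨n, hNH n.2⟩, Subgroup.mem_subgroupOf.2 n.2⟩] at h1
    exact h1
  have hres : IsIrrCharacter N (fun x : N => χ x) := by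
    rw [show (fun x : N => χ x) = (θ : N → ℂ) from funext hχN]; exact θ.2
  -- congruences on `H`
  have hgood : Good M χ H := by
    refine good_of_congr hNH fun g hg => ?_
    have horb : orb N g = (orb N' ⟨g, hg⟩).map (Function.Embedding.subtype _) := by
      ext x
      simp only [mem_orb, Finset.mem_map, Function.Embedding.subtype_apply]
      constructor
      · rintro ⟨n, hn, rfl⟩
        exact ⟨⟨n, hNH hn⟩ * ⟨g, hg⟩ * ⟨n, hNH hn⟩⁻¹,
          ⟨⟨n, hNH hn⟩, Subgroup.mem_subgroupOf.2 hn, rfl⟩, rfl⟩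
      · rintro ⟨y, ⟨n, hn, rfl⟩, rfl⟩
        exact ⟨n, Subgroup.mem_subgroupOf.1 hn, rfl⟩
    have h1 := hcongH ⟨g, hg⟩
    rw [omega_fsum] at h1
    rw [horb, Finset.card_map, omega_fsum, Finset.sum_map]
    simp only [Function.Embedding.subtype_apply, hχH']
    rw [show χ 1 = χH 1 from hχH' 1]
    exact h1
  have hblock : (⟨χ, hχ⟩ : IrrCharacter G) ∈ principalBlock M G :=
    mem_principalBlock_of_good _ (good_top hM hχc hres b H hidx hNH hgood)
  -- rationality
  set a := (Nat.card G).factorization p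
  set k := Nat.card G / p ^ a with hk
  have hpak : p ^ a * k = Nat.card G := Nat.ordProj_mul_ordCompl_eq_self _ p
  have hpk : Nat.Coprime p k := Nat.coprime_ordCompl hp.out Nat.card_pos.ne'
  have hm0 : m ≠ 0 := fun h => hm (h ▸ dvd_zero p)
  have hk0 : k ≠ 0 := fun h => Nat.card_pos.ne' (by rw [← hpak, h, mul_zero])
  have hn : ¬ p ∣ m * k := fun h => (hp.out.dvd_mul.1 h).elim hm (hp.out.coprime_iff_not_dvd.1 hpk)
  haveI : NeZero (m * k) := ⟨Nat.mul_ne_zero hm0 hk0⟩
  haveI : NeZero (Nat.card G * m) := ⟨Nat.mul_ne_zero Nat.card_pos.ne' hm0⟩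
  refine ⟨⟨χ, hχ⟩, hblock, ⟨m * k, hn, fun g => ?_⟩, hχN⟩
  refine mem_cycField_of_fixed hχc (L := Nat.card G * m) ?_ (by
    rw [pow_mul, pow_card_eq_one', one_pow]) fun t htc htn => ?_
  · exact ⟨p ^ a, by rw [← hpak]; ring⟩
  obtain ⟨σ, hσ⟩ := exists_ringAut_complex (Nat.card G * m) t htc
  haveI := Fintype.ofFinite G
  haveI := Fintype.ofFinite H
  have hζ := Complex.isPrimitiveRoot_exp m hm0
  have hσm : σ (Complex.exp (2 * Real.pi * Complex.I / m)) =
      Complex.exp (2 * Real.pi * Complex.I / m) := by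
    rw [hσ _ (by rw [pow_mul', hζ.pow_eq_one, one_pow])]
    conv_rhs => rw [← pow_one (Complex.exp _)]
    exact pow_eq_pow_of_modEq (htn.of_dvd (dvd_mul_right m k)) hζ.pow_eq_one
  have hdH : Nat.card H ∣ Nat.card G := Subgroup.card_subgroup_dvd_card H
  obtain ⟨c, hc⟩ := hdH
  have hσH : ∀ x : H, σ (χH x) = χH (x ^ t) := fun x =>
    ringAut_apply_character σ hσ hχHc
      ((orderOf_dvd_natCard x).trans ⟨c * m, by rw [hc, mul_assoc]⟩)
  set a' := (Nat.card H).factorization p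
  set k' := Nat.card H / p ^ a' with hk'
  have hpak' : p ^ a' * k' = Nat.card H := Nat.ordProj_mul_ordCompl_eq_self _ p
  have hk'k : k' ∣ k := by
    have h1 : k' ∣ p ^ a * k := by rw [hpak, hc, ← hpak', mul_assoc, mul_left_comm]; exact dvd_mul_right _ _
    exact (Nat.Coprime.pow_right a
      (Nat.coprime_ordCompl hp.out Nat.card_pos.ne').symm).dvd_of_dvd_mul_left h1
  have hlσ : ∀ {K : Type u} [Group K] [Finite K] (f : K →* ℂˣ), Nat.card K ∣ Nat.card G * m →
      orderOf f ∣ m * k → (fun x => σ ((f x : ℂˣ) : ℂ)) = fun x => ((f x : ℂˣ) : ℂ) := by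
    intro K _ _ f hK hf
    funext x
    have h1 : (f x : ℂ) ^ (m * k) = 1 := by
      rw [← Units.val_pow_eq_pow_val, ← MonoidHom.pow_apply, orderOf_dvd_iff_pow_eq_one.1 hf]; rfl
    rw [hσ _ (by rw [show Nat.card G * m = p ^ a * (m * k) by rw [← hpak]; ring, mul_comm, pow_mul,
      h1, one_pow])]
    conv_rhs => rw [← pow_one (f x : ℂ)]
    exact pow_eq_pow_of_modEq htn h1
  have hlk : orderOf l ∣ m * k := ((orderOf_dvd_ordCompl (pow_card_hom l) hlp).trans hk'k).trans
    (dvd_mul_left k m)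
  have hσχH : (fun x => σ (χH x)) = χH := by
    refine huniq _ (isIrrCharacter_ringAut σ hχH) (fun n => ?_) ?_ ?_
    · rw [hχHθ]
      exact ringAut_eq_self_of_mem_cycField σ hσm (hval (e n))
    · rw [funext hσH]
      exact congr_pow hM hχHc hχH1 hdeg' hpak'.symm
        (htn.of_dvd (hk'k.trans (dvd_mul_left k m))) hcongH
    · refine ⟨l, ?_, hlp⟩
      rw [detChar_ringAut σ hχHc, hl]
      exact hlσ l (hc ▸ Dvd.intro (c * m) (mul_assoc _ _ _).symm) hlk
  have hσχ : (fun x => σ (χ x)) = χ := by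
    refine hχu _ ⟨isIrrCharacter_ringAut σ hχ, fun x => ?_, ?_⟩
    · show σ (χ x) = χH x
      rw [hχH' x]
      exact congrFun hσχH x
    · rw [detChar_ringAut σ hχc, hχdet]
      exact hlσ ν (dvd_mul_right _ _) (hνo ▸ hlk)
  calc χ (g ^ t) = σ (χ g) :=
        (ringAut_apply_character σ hσ hχc ((orderOf_dvd_natCard g).trans (dvd_mul_right _ m))).symm
    _ = χ g := congrFun hσχ g

end CfsgLib.Blocks.OrbitSums
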