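import Cfsg.Agent.Lib.Blocks.Sections
import Cfsg.Agent.Lib.RealChar.PiSection
import Cfsg.Agent.Lib.Correspondences.CommutatorCount

/-!
# Blocks with a given defect group from `p`-separated classes
-/

set_option autoImplicit false
set_option linter.unusedSectionVars false
set_option linter.style.haveILetI false

open scoped ComplexConjugate
open Cfsg

namespace CfsgLib.Blocks

section Frobenius

variable {G : Type*} [Group G] [Fintype G]

/-- The sum of a character over the `p`-elements is divisible by the `p`-part of the group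
order. -/
theorem isIntegral_sum_pElements (p : ℕ) [Fact p.Prime] (χ : IrrCharacter G)
    [DecidablePred fun x : G => x ^ p ^ (Nat.card G).factorization p = 1] :
    IsIntegral ℤ ((∑ x ∈ Finset.univ.filter (fun x : G => x ^ p ^ (Nat.card G).factorization p = 1),
      (χ : G → ℂ) x) / ((p ^ (Nat.card G).factorization p : ℕ) : ℂ)) := by
  classical
  set a := (Nat.card G).factorization p
  set m := p ^ a with hm
  set n := Nat.card G / m with hn
  have hp : p.Prime := Fact.out
  have hcop : Nat.Coprime n m :=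
    Nat.Coprime.pow_right a ((hp.coprime_iff_not_dvd.mpr
      (Nat.not_dvd_ordCompl hp Nat.card_pos.ne')).symm)
  have hG : Nat.card G = n * m := by
    rw [mul_comm]
    exact (Nat.ordProj_mul_ordCompl_eq_self _ p).symm
  obtain ⟨k, hk⟩ := CfsgLib.RealChar.exists_isPiExp hcop
  have hiff : ∀ x : G, x ^ k = 1 ↔ x ^ m = 1 := fun x => by
    refine ⟨fun h => ?_, fun h => hk.pow_eq_one h⟩
    have h2 : x ^ (k - 1) = x⁻¹ ∨ k = 0 := by
      rcases k with _ | j
      · exact Or.inr rfl
      · left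
        rw [eq_inv_iff_mul_eq_one, Nat.add_sub_cancel, ← pow_succ, h]
    have hdx : orderOf x ∣ n * m := hG ▸ orderOf_dvd_natCard x
    have hdk : orderOf x ∣ k := orderOf_dvd_of_pow_eq_one h
    have hco : Nat.Coprime k n := by
      rw [Nat.Coprime, Nat.gcd_comm, Nat.gcd_rec, hk.1]
      rcases Nat.eq_or_lt_of_le (Nat.one_le_iff_ne_zero.mpr
        (Nat.div_pos (Nat.le_of_dvd Nat.card_pos (Nat.ordProj_dvd _ p)) (pow_pos hp.pos a)).ne' :
          1 ≤ n) with h1 | h1
      · rw [← h1]; simp
      · rw [Nat.one_mod_eq_one.mpr h1.ne']; exact Nat.gcd_one_left n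
    exact orderOf_dvd_iff_pow_eq_one.mp ((hco.coprime_dvd_left hdk).dvd_of_dvd_mul_left hdx)
  have key := CfsgLib.RealChar.isIntegral_classInner_sectionFun hk (dvd_of_eq hG) ({1} : Set G)
    (fun x g hx => by rw [Set.mem_singleton_iff] at hx ⊢; rw [hx]; simp)
    (CfsgLib.CharTheory.IsIrrCharacter.isGeneralizedCharacter χ.2)
  have key' := key.map (starRingEnd ℂ).toIntAlgHom
  have e : conj (classInner (CfsgLib.RealChar.sectionFun n k ({1} : Set G)) (χ : G → ℂ)) =
      (∑ x ∈ Finset.univ.filter (fun x : G => x ^ m = 1), (χ : G → ℂ) x) / (m : ℂ) := by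
    simp only [classInner, CfsgLib.RealChar.sectionFun, Set.mem_singleton_iff, map_mul, map_sum,
      map_inv₀, map_natCast, Complex.conj_conj, apply_ite (starRingEnd ℂ), map_zero, ite_mul,
      zero_mul]
    rw [← Finset.sum_filter, ← Finset.mul_sum, Finset.sum_congr (Finset.filter_congr fun x _ => hiff x)
      (fun _ _ => rfl), hG, Nat.cast_mul]
    have h1 : (n : ℂ) ≠ 0 := by
      intro h0
      rw [Nat.cast_eq_zero] at h0
      rw [h0, zero_mul] at hG
      exact Nat.card_pos.ne' hG
    field_simp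
  convert key' using 1
  refine Eq.trans ?_ e.symm
  congr!

end Frobenius

variable {G : Type*} [Group G] [Finite G] {p : ℕ} [Fact p.Prime] {M : Ideal AlgInt} [M.IsPrime]

theorem centralizer_singleton_inv (g : G) :
    Subgroup.centralizer ({g⁻¹} : Set G) = Subgroup.centralizer ({g} : Set G) := by
  ext x
  simp only [Subgroup.mem_centralizer_singleton_iff]
  exact ⟨fun h => by simpa using ((show Commute x g⁻¹ from h).inv_right).eq,
    fun h => ((show Commute x g from h).inv_right).eq⟩

/-- Where the degree is too divisible, a value over the class is small. -/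
theorem memLocalRing_irr_mul_div (hM : IsPModular p M) (χ : IrrCharacter G) (g : G) {m : ℕ}
    (hm : (Subgroup.centralizer ({g} : Set G)).index.factorization p ≤ m) :
    MemLocalRing M ((χ : G → ℂ) g * ((p : ℂ) ^ m / (charDegree (χ : G → ℂ) : ℂ))) := by
  have hK : ((Subgroup.centralizer ({g} : Set G)).index : ℂ) ≠ 0 :=
    Nat.cast_ne_zero.mpr (centralizer_index_ne_zero g)
  rw [show (χ : G → ℂ) g * ((p : ℂ) ^ m / (charDegree (χ : G → ℂ) : ℂ)) =
      centralChar (χ : G → ℂ) g *
        (((p ^ m : ℕ) : ℂ) / ((Subgroup.centralizer ({g} : Set G)).index : ℂ)) by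
    rw [centralChar_apply, ← charDegree_cast, Nat.cast_pow]
    field_simp]
  exact memLocalRing_mul (memLocalRing_centralChar χ g)
    (BlockLocal.memLocalRing_natCast_div hM (centralizer_index_ne_zero g)
      (by rwa [Nat.factorization_pow_self hM.1]))

/-- A value over the class times a degree ratio in the ideal lies in the ideal. -/
theorem memLocalIdeal_irr_of_lt (hM : IsPModular p M) (χ : IrrCharacter G) (g : G)
    (h : (Subgroup.centralizer ({g} : Set G)).index.factorization p <
      (charDegree (χ : G → ℂ)).factorization p) :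
    MemLocalIdeal M ((χ : G → ℂ) g) := by
  obtain ⟨l, hl⟩ : p ^ ((Subgroup.centralizer ({g} : Set G)).index.factorization p + 1) ∣
      charDegree (χ : G → ℂ) := (Nat.pow_dvd_pow p h).trans (Nat.ordProj_dvd _ p)
  set i := (Subgroup.centralizer ({g} : Set G)).index.factorization p with hi
  have hK : ((Subgroup.centralizer ({g} : Set G)).index : ℂ) ≠ 0 :=
    Nat.cast_ne_zero.mpr (centralizer_index_ne_zero g)
  have hd : (charDegree (χ : G → ℂ) : ℂ) ≠ 0 := Nat.cast_ne_zero.mpr (charDegree_ne_zero' χ)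
  rw [show (χ : G → ℂ) g = (p : ℂ) * ((l : ℂ) * (centralChar (χ : G → ℂ) g *
      (((p ^ i : ℕ) : ℂ) / ((Subgroup.centralizer ({g} : Set G)).index : ℂ)))) by
    rw [centralChar_apply, ← charDegree_cast]
    field_simp
    rw [hl]
    push_cast
    ring]
  exact memLocalIdeal_mul_right ((memLocalIdeal_natCast_iff hM p).mpr dvd_rfl)
    (memLocalRing_mul (memLocalRing_natCast l) (memLocalRing_mul (memLocalRing_centralChar χ g)
      (BlockLocal.memLocalRing_natCast_div hM (centralizer_index_ne_zero g)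
        (by rw [Nat.factorization_pow_self hM.1]))))

/-- Congruent central characters with degrees of equal `p`-part give proportional values. -/
theorem exists_red_irr_eq_mul (hM : IsPModular p M) {χ χ' : IrrCharacter G}
    (h : SameBlock M (χ : G → ℂ) (χ' : G → ℂ))
    (hv : (charDegree (χ : G → ℂ)).factorization p = (charDegree (χ' : G → ℂ)).factorization p) :
    ∃ c : Res M, c ≠ 0 ∧ ∀ g : G, (Subgroup.centralizer ({g} : Set G)).index.factorization p =
      (charDegree (χ : G → ℂ)).factorization p →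
      red M ⟨(χ' : G → ℂ) g, memLocalRing_irr χ' g⟩ =
        c * red M ⟨(χ : G → ℂ) g, memLocalRing_irr χ g⟩ := by
  have hR : MemLocalRing M ((charDegree (χ' : G → ℂ) : ℂ) / (charDegree (χ : G → ℂ) : ℂ)) :=
    BlockLocal.memLocalRing_natCast_div hM (charDegree_ne_zero' χ) hv.le
  have hR' : MemLocalRing M ((charDegree (χ : G → ℂ) : ℂ) / (charDegree (χ' : G → ℂ) : ℂ)) :=
    BlockLocal.memLocalRing_natCast_div hM (charDegree_ne_zero' χ') hv.ge
  have hd : (charDegree (χ : G → ℂ) : ℂ) ≠ 0 := Nat.cast_ne_zero.mpr (charDegree_ne_zero' χ)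
  have hd' : (charDegree (χ' : G → ℂ) : ℂ) ≠ 0 := Nat.cast_ne_zero.mpr (charDegree_ne_zero' χ')
  refine ⟨red M ⟨_, hR⟩, ?_, fun g hg => ?_⟩
  · rw [red_ne_zero_iff]
    exact not_memLocalIdeal_of_mul_eq_one hR' (by field_simp)
  rw [← map_mul, red_eq_red_iff]
  have hK : ((Subgroup.centralizer ({g} : Set G)).index : ℂ) ≠ 0 :=
    Nat.cast_ne_zero.mpr (centralizer_index_ne_zero g)
  show MemLocalIdeal M ((χ' : G → ℂ) g -
    (charDegree (χ' : G → ℂ) : ℂ) / (charDegree (χ : G → ℂ) : ℂ) * (χ : G → ℂ) g)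
  rw [show (χ' : G → ℂ) g - (charDegree (χ' : G → ℂ) : ℂ) / (charDegree (χ : G → ℂ) : ℂ) *
      (χ : G → ℂ) g = (centralChar (χ' : G → ℂ) g - centralChar (χ : G → ℂ) g) *
      ((charDegree (χ' : G → ℂ) : ℂ) /
        ((Subgroup.centralizer ({g} : Set G)).index : ℂ)) by
    rw [centralChar_apply, centralChar_apply, ← charDegree_cast, ← charDegree_cast]
    field_simp]
  exact memLocalIdeal_mul_right (memLocalIdeal_sub_comm.mp (h g))
    (BlockLocal.memLocalRing_natCast_div hM (centralizer_index_ne_zero g) (by rw [hg, hv]))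

/-- The pairing of two separated classes through the `p`-elements. -/
theorem sum_pairing_eq [Fintype G] [Fintype (IrrCharacter G)] [DecidableEq G] (a b : G)
    (S : Finset G) (hinv : ∀ x ∈ S, x⁻¹ ∈ S) (hconj : ∀ c x : G, x ∈ S → c * x * c⁻¹ ∈ S)
    (h1 : (1 : G) ∈ S)
    (hsep : ∀ g : G, a * (g * b⁻¹ * g⁻¹) ∈ S → a * (g * b⁻¹ * g⁻¹) = 1) :
    ∑ χ : IrrCharacter G, (χ : G → ℂ) a * conj ((χ : G → ℂ) b) *
      ((∑ u ∈ S, (χ : G → ℂ) u) / (χ : G → ℂ) 1) =
      ((Finset.univ.filter fun g : G => g * b * g⁻¹ = a).card : ℂ) := by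
  classical
  have hG : (Nat.card G : ℂ) ≠ 0 := Nat.cast_ne_zero.mpr Nat.card_pos.ne'
  have e : ∀ χ : IrrCharacter G, (χ : G → ℂ) a * conj ((χ : G → ℂ) b) *
      ((∑ u ∈ S, (χ : G → ℂ) u) / (χ : G → ℂ) 1) =
      (Nat.card G : ℂ)⁻¹ * ∑ g : G, ∑ u ∈ S,
        (χ : G → ℂ) (g * b⁻¹ * g⁻¹ * a) * (χ : G → ℂ) u := by
    intro χ
    have h := CfsgLib.Correspondences.sum_conj_mul_eq χ.2 b⁻¹ a
    have h1 := CharTheory.apply_one_ne_zero_of_isIrr χ.2
    simp only [← Finset.mul_sum, ← Finset.sum_mul]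
    rw [h, ← CharTheory.IsIrrCharacter.inv χ.2]
    field_simp
  simp only [e]
  rw [← Finset.mul_sum, Finset.sum_comm]
  have hval : ∀ g : G, ∑ χ : IrrCharacter G, ∑ u ∈ S,
      (χ : G → ℂ) (g * b⁻¹ * g⁻¹ * a) * (χ : G → ℂ) u =
      if g * b * g⁻¹ = a then (Nat.card G : ℂ) else 0 := by
    intro g
    rw [Finset.sum_comm]
    simp only [sum_mul_eq_card_fixed]
    have hfix : ∀ u z : G, (g * b⁻¹ * g⁻¹ * a) * z * u = z ↔
        z * u * z⁻¹ = (g * b⁻¹ * g⁻¹ * a)⁻¹ := fun u z => by
      constructor <;> intro h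
      · rw [eq_inv_iff_mul_eq_one, mul_eq_one_comm]
        calc g * b⁻¹ * g⁻¹ * a * (z * u * z⁻¹) = (g * b⁻¹ * g⁻¹ * a * z * u) * z⁻¹ := by group
          _ = 1 := by rw [h, mul_inv_cancel]
      · calc g * b⁻¹ * g⁻¹ * a * z * u = g * b⁻¹ * g⁻¹ * a * (z * u * z⁻¹) * z := by group
          _ = z := by rw [h, mul_inv_cancel, one_mul]
    by_cases hg : g * b * g⁻¹ = a
    · rw [if_pos hg, Finset.sum_eq_single (1 : G)]
      · rw [Finset.filter_true_of_mem, Finset.card_univ, Nat.card_eq_fintype_card]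
        intro z _
        rw [hfix, ← hg]
        group
      · intro u hu hu1
        rw [Finset.filter_eq_empty_iff.mpr, Finset.card_empty, Nat.cast_zero]
        intro z _ hz
        rw [hfix, ← hg] at hz
        apply hu1
        rw [show (g * b⁻¹ * g⁻¹ * (g * b * g⁻¹))⁻¹ = (1 : G) by group] at hz
        exact conj_eq_one_iff.mp hz
      · exact fun h => absurd h1 h
    · rw [if_neg hg]
      refine Finset.sum_eq_zero fun u hu => ?_
      rw [Finset.filter_eq_empty_iff.mpr, Finset.card_empty, Nat.cast_zero]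
      intro z _ hz
      apply hg
      rw [hfix] at hz
      have hw : a * (g * b⁻¹ * g⁻¹) ∈ S := by
        have h2 := hconj a _ (hinv _ (hz ▸ hconj z u hu))
        rwa [inv_inv, show a * (g * b⁻¹ * g⁻¹ * a) * a⁻¹ = a * (g * b⁻¹ * g⁻¹) by group] at h2
      have h3 := hsep g hw
      rw [mul_eq_one_iff_eq_inv] at h3
      rw [h3]
      group
  rw [Finset.sum_congr rfl fun g _ => hval g, ← Finset.sum_filter, Finset.sum_const, nsmul_eq_mul]
  field_simp

/-- Blocks with a given defect group from separated classes. -/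
theorem exists_blocks_of_separated (hM : IsPModular p M) (D : Subgroup G) {r : ℕ} (x : Fin r → G)
    (hx : ∀ i j : Fin r, IsConj (x i) (x j) → i = j)
    (hD : ∀ i : Fin r, ∃ S : Sylow p ↥(Subgroup.centralizer ({x i} : Set G)),
      (S : Subgroup ↥(Subgroup.centralizer ({x i} : Set G))).map
        (Subgroup.centralizer ({x i} : Set G)).subtype = D)
    (hsep : ∀ i j : Fin r, ∀ g h : G, IsConj (x i) g → IsConj (x j) h → ∀ k : ℕ, 0 < k →
      orderOf (g * h⁻¹) ≠ p ^ k) :
    ∃ B : Fin r → Set (IrrCharacter G), Function.Injective B ∧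
      (∀ i : Fin r, IsPBlock M (B i) ∧ IsDefectGroup p M (B i) D) ∧
      ∀ χ : Fin r → IrrCharacter G,
        (∀ i : Fin r, χ i ∈ B i ∧ blockHeight p (B i) (χ i : G → ℂ) = 0) →
        ¬ MemLocalIdeal M (Matrix.det (Matrix.of fun i j : Fin r => (χ i : G → ℂ) (x j))) := by
  classical
  haveI := Fintype.ofFinite G
  haveI := Fintype.ofFinite (IrrCharacter G)
  haveI := charP_res hM
  rcases Nat.eq_zero_or_pos r with rfl | hr
  · exact ⟨fun i => i.elim0, fun i => i.elim0, fun i => i.elim0, fun χ _ => by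
      rw [Matrix.det_fin_zero]; exact not_memLocalIdeal_one⟩
  obtain ⟨S0, hS0⟩ := hD ⟨0, hr⟩
  set a := (Nat.card G).factorization p with ha
  obtain ⟨d, hd⟩ : ∃ d : ℕ, Nat.card D = p ^ d := by
    rw [← hS0, card_sylow_map]; exact ⟨_, rfl⟩
  have hC : ∀ i, (Nat.card (Subgroup.centralizer ({x i} : Set G))).factorization p = d := fun i => by
    obtain ⟨S, hS⟩ := hD i
    have := card_sylow_map S
    rw [hS, hd] at this
    exact (Nat.pow_right_injective hM.1.two_le this).symm
  have hK : ∀ i, (Subgroup.centralizer ({x i} : Set G)).index.factorization p = a - d := fun i => by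
    have := factorization_card_eq (p := p) (x i)
    rw [hC i, ← ha] at this
    omega
  have hda : d ≤ a := by
    have := factorization_card_eq (p := p) (x ⟨0, hr⟩)
    rw [hC, ← ha] at this
    omega
  set Sp := Finset.univ.filter (fun u : G => u ^ p ^ a = 1) with hSp
  let F : IrrCharacter G → ℂ := fun χ => (∑ u ∈ Sp, (χ : G → ℂ) u) / ((p ^ a : ℕ) : ℂ)
  have hF : ∀ χ, MemLocalRing M (F χ) := fun χ =>
    memLocalRing_of_isIntegral (isIntegral_sum_pElements p χ)
  have hsep' : ∀ i j : Fin r, ∀ g : G, x i * (g * (x j)⁻¹ * g⁻¹) ∈ Sp →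
      x i * (g * (x j)⁻¹ * g⁻¹) = 1 := by
    intro i j g hg
    by_contra hne
    have hg' := orderOf_dvd_of_pow_eq_one (Finset.mem_filter.mp hg).2
    obtain ⟨k, -, hk⟩ := (Nat.dvd_prime_pow hM.1).mp hg'
    refine hsep i j (x i) (g * x j * g⁻¹) (IsConj.refl _) (isConj_iff.mpr ⟨g, rfl⟩) k
      (Nat.pos_of_ne_zero fun h0 => hne (orderOf_eq_one_iff.mp (by rw [hk, h0, pow_zero]))) ?_
    rw [show x i * (g * x j * g⁻¹)⁻¹ = x i * (g * (x j)⁻¹ * g⁻¹) by group, hk]
  -- the identity
  let Tm : IrrCharacter G → Fin r → Fin r → ℂ := fun χ i j =>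
    (χ : G → ℂ) (x i) * conj ((χ : G → ℂ) (x j)) * F χ *
      ((p : ℂ) ^ (a - d) / (charDegree (χ : G → ℂ) : ℂ))
  have hT : ∀ i j, ∑ χ, Tm χ i j = if i = j then
      ((Nat.card (Subgroup.centralizer ({x i} : Set G)) : ℕ) : ℂ) / ((p ^ d : ℕ) : ℂ) else 0 := by
    intro i j
    have h := sum_pairing_eq (x i) (x j) Sp
      (fun u hu => by
        simp only [hSp, Finset.mem_filter, Finset.mem_univ, true_and] at hu ⊢
        rw [inv_pow, hu, inv_one])
      (fun c u hu => by
        simp only [hSp, Finset.mem_filter, Finset.mem_univ, true_and] at hu ⊢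
        rw [conj_pow, hu, mul_one, mul_inv_cancel])
      (Finset.mem_filter.mpr ⟨Finset.mem_univ _, one_pow _⟩) (hsep' i j)
    have e : ∀ χ : IrrCharacter G, Tm χ i j = ((χ : G → ℂ) (x i) * conj ((χ : G → ℂ) (x j)) *
        ((∑ u ∈ Sp, (χ : G → ℂ) u) / (χ : G → ℂ) 1)) / ((p ^ d : ℕ) : ℂ) := fun χ => by
      simp only [Tm, F, ← charDegree_cast]
      have hp0 : (p : ℂ) ≠ 0 := Nat.cast_ne_zero.mpr hM.1.ne_zero
      have hd0 : (charDegree (χ : G → ℂ) : ℂ) ≠ 0 := Nat.cast_ne_zero.mpr (charDegree_ne_zero' χ)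
      rw [show ((p ^ a : ℕ) : ℂ) = (p : ℂ) ^ (a - d) * (p : ℂ) ^ d by
        rw [← pow_add, Nat.sub_add_cancel hda, Nat.cast_pow], Nat.cast_pow]
      field_simp
    simp only [e, ← Finset.sum_div, h]
    by_cases hij : i = j
    · subst hij
      rw [if_pos rfl]
      congr 2
      rw [Nat.card_eq_fintype_card, Fintype.card_subtype]
      congr 1
      ext g
      simp only [Finset.mem_filter, Finset.mem_univ, true_and,
        Subgroup.mem_centralizer_singleton_iff, mul_inv_eq_iff_eq_mul]
    · rw [if_neg hij, Finset.filter_eq_empty_iff.mpr, Finset.card_empty, Nat.cast_zero, zero_div]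
      intro g _ hg
      exact hij (hx j i (isConj_iff.mpr ⟨g, hg⟩)).symm
  -- the columns
  let X := {χ : IrrCharacter G // (charDegree (χ : G → ℂ)).factorization p = a - d}
  let W : Matrix (Fin r) X (Res M) := Matrix.of fun i χ =>
    red M ⟨(χ.1 : G → ℂ) (x i), memLocalRing_irr χ.1 (x i)⟩
  have hV : ∀ (χ : X) j, MemLocalRing M (conj ((χ.1 : G → ℂ) (x j)) * F χ.1 *
      ((p : ℂ) ^ (a - d) / (charDegree (χ.1 : G → ℂ) : ℂ))) := fun χ j => by
    rw [← CharTheory.IsIrrCharacter.inv χ.1.2, ← Nat.cast_pow]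
    refine memLocalRing_mul (memLocalRing_mul (memLocalRing_irr χ.1 _) (hF χ.1))
      (BlockLocal.memLocalRing_natCast_div hM (charDegree_ne_zero' χ.1) ?_)
    rw [Nat.factorization_pow_self hM.1, χ.2]
  let V : Matrix X (Fin r) (Res M) := Matrix.of fun χ j => red M ⟨_, hV χ j⟩
  have hTR : ∀ (χ : IrrCharacter G) i j, MemLocalRing M (Tm χ i j) := fun χ i j => by
    rw [show Tm χ i j = (conj ((χ : G → ℂ) (x j)) * F χ) *
      ((χ : G → ℂ) (x i) * ((p : ℂ) ^ (a - d) / (charDegree (χ : G → ℂ) : ℂ))) by simp only [Tm]; ring,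
      ← CharTheory.IsIrrCharacter.inv χ.2]
    exact memLocalRing_mul (memLocalRing_mul (memLocalRing_irr χ _) (hF χ))
      (memLocalRing_irr_mul_div hM χ (x i) (hK i).le)
  have hTout : ∀ (χ : IrrCharacter G) i j, (charDegree (χ : G → ℂ)).factorization p ≠ a - d →
      MemLocalIdeal M (Tm χ i j) := fun χ i j hne => by
    rcases lt_or_gt_of_ne hne with hlt | hgt
    · -- the ratio lies in the ideal
      obtain ⟨l, hl⟩ : p ∣ p ^ (a - d - (charDegree (χ : G → ℂ)).factorization p) :=
        dvd_pow_self p (by omega)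
      have hrat : MemLocalIdeal M ((p : ℂ) ^ (a - d) / (charDegree (χ : G → ℂ) : ℂ)) := by
        have e : (p : ℂ) ^ (a - d) / (charDegree (χ : G → ℂ) : ℂ) = (p : ℂ) *
            (((l * p ^ (charDegree (χ : G → ℂ)).factorization p : ℕ) : ℂ) /
              (charDegree (χ : G → ℂ) : ℂ)) := by
          rw [← mul_div_assoc, ← Nat.cast_pow, ← Nat.cast_mul]
          congr 2
          rw [← mul_assoc, ← hl, ← pow_add, Nat.sub_add_cancel hlt.le]
        rw [e]
        refine memLocalIdeal_mul_right ((memLocalIdeal_natCast_iff hM p).mpr dvd_rfl)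
          (BlockLocal.memLocalRing_natCast_div hM (charDegree_ne_zero' χ) ?_)
        rw [Nat.factorization_mul (fun h0 => by
            rw [h0, mul_zero] at hl
            exact absurd hl (pow_ne_zero _ hM.1.ne_zero)) (pow_ne_zero _ hM.1.ne_zero),
          Finsupp.add_apply, Nat.factorization_pow_self hM.1]
        exact le_add_self
      simp only [Tm]
      rw [← CharTheory.IsIrrCharacter.inv χ.2]
      exact memLocalIdeal_mul_left (memLocalRing_mul (memLocalRing_mul (memLocalRing_irr χ _)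
        (memLocalRing_irr χ _)) (hF χ)) hrat
    · rw [show Tm χ i j = (χ : G → ℂ) (x i) * (F χ * (conj ((χ : G → ℂ) (x j)) *
        ((p : ℂ) ^ (a - d) / (charDegree (χ : G → ℂ) : ℂ)))) by simp only [Tm]; ring,
        ← CharTheory.IsIrrCharacter.inv χ.2]
      refine memLocalIdeal_mul_right (memLocalIdeal_irr_of_lt hM χ _ (by rw [hK i]; exact hgt))
        (memLocalRing_mul (hF χ) (memLocalRing_irr_mul_div hM χ _ ?_))
      rw [centralizer_singleton_inv, hK j]
  -- the product is diagonal with unit entries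
  let u : Fin r → Res M := fun i => red M
    ⟨((Nat.card (Subgroup.centralizer ({x i} : Set G)) : ℕ) : ℂ) / ((p ^ d : ℕ) : ℂ),
      BlockLocal.memLocalRing_natCast_div hM (pow_ne_zero _ hM.1.ne_zero)
        (by rw [Nat.factorization_pow_self hM.1, hC i])⟩
  have hu : ∀ i, u i ≠ 0 := fun i => by
    rw [red_ne_zero_iff]
    refine not_memLocalIdeal_of_mul_eq_one (y := ((p ^ d : ℕ) : ℂ) /
      ((Nat.card (Subgroup.centralizer ({x i} : Set G)) : ℕ) : ℂ))
      (BlockLocal.memLocalRing_natCast_div hM Nat.card_pos.ne'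
        (by rw [Nat.factorization_pow_self hM.1, hC i])) ?_
    have h1 : ((Nat.card (Subgroup.centralizer ({x i} : Set G)) : ℕ) : ℂ) ≠ 0 :=
      Nat.cast_ne_zero.mpr Nat.card_pos.ne'
    have h2 : ((p ^ d : ℕ) : ℂ) ≠ 0 := Nat.cast_ne_zero.mpr (pow_ne_zero _ hM.1.ne_zero)
    field_simp
  have hWV : W * V = Matrix.diagonal u := by
    refine Matrix.ext fun i j => ?_
    rw [Matrix.mul_apply]
    have e1 : ∀ χ : X, W i χ * V χ j = red M ⟨Tm χ.1 i j, hTR χ.1 i j⟩ := fun χ => by
      simp only [W, V, Matrix.of_apply, ← map_mul]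
      refine congrArg (red M) (Subtype.ext ?_)
      show (χ.1 : G → ℂ) (x i) * _ = Tm χ.1 i j
      simp only [Tm]
      ring
    have e2 : ∑ χ : IrrCharacter G, red M ⟨Tm χ i j, hTR χ i j⟩ = Matrix.diagonal u i j := by
      rw [← map_sum, Matrix.diagonal_apply]
      split_ifs with hij
      · refine congrArg (red M) (Subtype.ext ?_)
        rw [AddSubmonoidClass.coe_finsetSum]
        exact (hT i j).trans (if_pos hij)
      · rw [red_eq_zero_iff, AddSubmonoidClass.coe_finsetSum]
        rw [show (∑ χ, Tm χ i j) = 0 from (hT i j).trans (if_neg hij)]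
        exact memLocalIdeal_zero
    rw [← e2, Finset.sum_congr rfl fun χ _ => e1 χ]
    rw [← Finset.sum_filter_add_sum_filter_not Finset.univ
      (fun χ : IrrCharacter G => (charDegree (χ : G → ℂ)).factorization p = a - d)]
    rw [Finset.sum_eq_zero (s := Finset.filter (fun χ : IrrCharacter G =>
      ¬ (charDegree (χ : G → ℂ)).factorization p = a - d) Finset.univ) fun χ hχ =>
      (red_eq_zero_iff _).mpr (hTout χ i j (Finset.mem_filter.mp hχ).2), add_zero]
    exact (Finset.sum_subtype (Finset.univ.filter fun χ : IrrCharacter G =>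
      (charDegree (χ : G → ℂ)).factorization p = a - d) (fun χ => by simp)
      (fun χ => red M ⟨Tm χ i j, hTR χ i j⟩)).symm
  -- choose the characters
  obtain ⟨κ, f, hf, hspan, hli⟩ := exists_linearIndependent' (Res M) W.col
  have htop : Submodule.span (Res M) (Set.range W.col) = ⊤ := by
    rw [← Matrix.range_mulVecLin, LinearMap.range_eq_top]
    intro v
    refine ⟨V.mulVec fun i => (u i)⁻¹ * v i, ?_⟩
    rw [Matrix.mulVecLin_apply, Matrix.mulVec_mulVec, hWV]
    funext i
    rw [Matrix.mulVec_diagonal, mul_inv_cancel_left₀ (hu i)]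
  haveI := Finite.of_injective f hf
  haveI := Fintype.ofFinite κ
  have hcard : Fintype.card κ = r := by
    rw [← finrank_span_eq_card hli, hspan, htop, finrank_top, Module.finrank_fin_fun]
  let eκ : Fin r ≃ κ := (Fintype.equivFinOfCardEq hcard).symm
  let ψ : Fin r → X := fun i => f (eκ i)
  let A : Matrix (Fin r) (Fin r) (Res M) := Matrix.of fun i j => W j (ψ i)
  have hA : LinearIndependent (Res M) A.row := hli.comp eκ eκ.injective
  have hrow : ∀ i, ∃ j, ¬ MemLocalIdeal M ((ψ i).1.1 (x j)) := fun i => by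
    by_contra hno
    push Not at hno
    refine hA.ne_zero i (funext fun j => ?_)
    exact (red_eq_zero_iff _).mpr (hno j)
  set B : Fin r → Set (IrrCharacter G) := fun i => blockOf M ((ψ i).1 : G → ℂ) with hBdef
  have hBD : ∀ i, IsDefectGroup p M (B i) D := fun i => by
    have hB : IsPBlock M (B i) := isPBlock_blockOf _
    obtain ⟨j, hj⟩ := hrow i
    have hω : ¬ MemLocalIdeal M (centralChar ((ψ i).1 : G → ℂ) (x j)) := fun hI => by
      refine hj ?_
      rw [show ((ψ i).1 : G → ℂ) (x j) = centralChar ((ψ i).1 : G → ℂ) (x j) *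
        ((charDegree ((ψ i).1 : G → ℂ) : ℂ) /
          ((Subgroup.centralizer ({x j} : Set G)).index : ℂ)) by
        have hKne : ((Subgroup.centralizer ({x j} : Set G)).index : ℂ) ≠ 0 :=
          Nat.cast_ne_zero.mpr (centralizer_index_ne_zero _)
        have hdne : (charDegree ((ψ i).1 : G → ℂ) : ℂ) ≠ 0 :=
          Nat.cast_ne_zero.mpr (charDegree_ne_zero' _)
        rw [centralChar_apply, ← charDegree_cast]
        field_simp]
      exact memLocalIdeal_mul_right hI (BlockLocal.memLocalRing_natCast_div hM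
        (centralizer_index_ne_zero _) (by rw [hK j, (ψ i).2]))
    obtain ⟨y, hy⟩ := exists_isDefectClass hM hB
    obtain ⟨Sy⟩ := (inferInstance : Nonempty (Sylow p (Subgroup.centralizer ({y} : Set G))))
    have hE := isDefectGroup_sylow_map hy Sy
    obtain ⟨S, hS⟩ := hD j
    obtain ⟨c, hc⟩ := exists_conj_le_sylow hM hB hy.2.1 (mem_blockOf_self (ψ i).1) hω
      (isPGroup_sylow_map Sy) (sylow_map_le Sy) S
    rw [hS] at hc
    have hle : sInf ((fun χ : IrrCharacter G => (charDegree (χ : G → ℂ)).factorization p) '' B i)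
        ≤ a - d := Nat.sInf_le ⟨(ψ i).1, mem_blockOf_self (ψ i).1, (ψ i).2⟩
    rw [sInf_factorization_eq hM hB hy] at hle
    have heq := Subgroup.eq_of_le_of_card_ge hc (by
      rw [card_map_conj, card_sylow_map, hd]
      refine Nat.pow_le_pow_right hM.1.pos ?_
      have := factorization_card_eq (p := p) y
      omega)
    rw [← heq]
    exact isDefectGroup_map_conj hE c
  refine ⟨B, fun i k hik => ?_, fun i => ⟨isPBlock_blockOf _, hBD i⟩, fun χ hχ => ?_⟩
  · by_contra hne
    obtain ⟨c, hc0, hc⟩ := exists_red_irr_eq_mul hM (χ := (ψ i).1) (χ' := (ψ k).1)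
      (show (ψ k).1 ∈ B i from hik ▸ mem_blockOf_self (ψ k).1) ((ψ i).2.trans (ψ k).2.symm)
    have hdep : A.row k = c • A.row i := funext fun j => hc (x j) ((hK j).trans (ψ i).2.symm)
    refine hA.notMem_span_image (s := {i}) (x := k)
      (fun h => hne (Set.mem_singleton_iff.mp h).symm) ?_
    rw [hdep, Set.image_singleton]
    exact Submodule.smul_mem _ _ (Submodule.mem_span_singleton_self _)
  · have hv : ∀ i, (charDegree (χ i : G → ℂ)).factorization p = a - d := fun i => by
      obtain ⟨y, hy, S, hS⟩ := id (hBD i)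
      have hsinf := sInf_factorization_eq hM (isPBlock_blockOf _) hy
      have hcard := congrArg (fun H : Subgroup G => Nat.card H) hS
      simp only [card_sylow_map, hd] at hcard
      have := Nat.pow_right_injective hM.1.two_le hcard
      have h2 := factorization_card_eq (p := p) y
      have h3 := (hχ i).2
      unfold blockHeight at h3
      have h4 : sInf ((fun ψ : IrrCharacter G => (charDegree (ψ : G → ℂ)).factorization p) '' B i)
          ≤ (charDegree (χ i : G → ℂ)).factorization p := Nat.sInf_le ⟨χ i, (hχ i).1, rfl⟩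
      rw [hsinf] at h3 h4
      omega
    choose c hc0 hc using fun i => exists_red_irr_eq_mul hM (χ := (ψ i).1) (χ' := χ i) (hχ i).1
      ((ψ i).2.trans (hv i).symm)
    let L : Matrix (Fin r) (Fin r) (locRing M) :=
      Matrix.of fun i j => ⟨(χ i : G → ℂ) (x j), memLocalRing_irr (χ i) (x j)⟩
    intro hI
    have h1 : red M L.det = 0 := by
      rw [red_eq_zero_iff]
      have e : ((L.det : locRing M) : ℂ) =
          Matrix.det (Matrix.of fun i j : Fin r => (χ i : G → ℂ) (x j)) := by
        rw [← Subring.coe_subtype, RingHom.map_det]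
        rfl
      rwa [e]
    rw [RingHom.map_det] at h1
    have e : (red M).mapMatrix L = Matrix.diagonal c * A := by
      refine Matrix.ext fun i j => ?_
      rw [Matrix.diagonal_mul]
      exact hc i (x j) ((hK j).trans (ψ i).2.symm)
    rw [e, Matrix.det_mul, Matrix.det_diagonal, mul_eq_zero, Finset.prod_eq_zero_iff] at h1
    rcases h1 with ⟨i, -, hi⟩ | h1
    · exact hc0 i hi
    · exact (Matrix.isUnit_iff_isUnit_det A |>.mp
        (Matrix.linearIndependent_rows_iff_isUnit.mp hA)).ne_zero h1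

end CfsgLib.Blocks
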